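import Groth.Agent.Dual.H353.IsoTransport
import Groth.Agent.S1055
import Groth.Agent.LoccohB.LBC

/-!
# Relative dualizing pairs over affine schemes: the universality clause

`R → A` a ring map, `f : Spec A ⟶ Spec R`, `μ : A ⊗ A → A`, `ι₁ : A → A ⊗ A`, `k` in `D(A)`.

* `goodQ_toPair_iff`: an arrow `x : F ⟶ k ⊗_A (A ⊗ A)` of `D(A ⊗ A)` is good for `μ` iff the corresponding arrow
  `toPair x : _ ⟶ L pr₁^* k~` is good (among objects with quasi-coherent cohomology) for the diagonal of `f`;
* `exists_goodQ_iff`: there is a good arrow to `L pr₁^* k~` iff `R_μ (k ⊗_A (A ⊗ A)) ≅ A` for a (any) right adjoint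
  `R_μ` of restriction of scalars along `μ`.
-/

set_option autoImplicit false

universe u

open CategoryTheory CategoryTheory.Limits AlgebraicGeometry
open scoped TensorProduct

attribute [local instance] HasDerivedCategory.standard

namespace Groth.Agent.Dual.H353.AffPair

open Groth.Agent.Dual.H353.Arrow Groth.Agent.Dual.H353.AffUniv Groth.Agent.Dual.H353.IsoTransport
open Groth.Agent.PerfA.Restrict (restrictD)
open Groth.Agent.LoccohB.AdAffine (tD)
open Groth.Agent.LoccohB.Univ

variable (R A : Type u) [CommRing R] [CommRing A] [Algebra R A]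

/-- `Spec A ⟶ Spec R`. -/
noncomputable abbrev sm : Spec (CommRingCat.of A) ⟶ Spec (CommRingCat.of R) :=
  Spec.map (CommRingCat.ofHom (algebraMap R A))

/-- The multiplication `A ⊗ A → A`. -/
noncomputable abbrev mu : CommRingCat.of (A ⊗[R] A) ⟶ CommRingCat.of A :=
  CommRingCat.ofHom (Algebra.TensorProduct.lmul' R (S := A)).toRingHom

/-- The left coprojection `A → A ⊗ A`. -/
noncomputable abbrev inl : CommRingCat.of A ⟶ CommRingCat.of (A ⊗[R] A) :=
  CommRingCat.ofHom (Algebra.TensorProduct.includeLeftRingHom : A →+* TensorProduct R A A)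

instance preservesFiniteLimits_tilde_of (B : Type u) [CommRing B] :
    PreservesFiniteLimits (tilde.functor (CommRingCat.of B)) :=
  PerfB.TildeExact.preservesFiniteLimits_tilde (CommRingCat.of B)

instance full_tD_of (B : Type u) [CommRing B] : (tD (CommRingCat.of B)).Full :=
  AffUniv.full_tD

instance faithful_tD_of (B : Type u) [CommRing B] : (tD (CommRingCat.of B)).Faithful :=
  AffUniv.faithful_tD

lemma mu_surjective : Function.Surjective (mu R A).hom := fun a =>
  ⟨a ⊗ₜ 1, by
    change Algebra.TensorProduct.lmul' R (a ⊗ₜ[R] 1) = a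
    rw [Algebra.TensorProduct.lmul'_apply_tmul, mul_one]⟩

instance : IsClosedImmersion (Spec.map (mu R A)) :=
  IsClosedImmersion.spec_of_surjective _ (mu_surjective R A)

instance preservesFiniteColimits_mu :
    PreservesFiniteColimits (Scheme.Modules.pushforward (Spec.map (mu R A))) :=
  Sga67.ClosedPush.preservesFiniteColimits_pushforward _

lemma diagonal_comp : pullback.diagonal (sm R A) ≫ (pullbackSpecIso R A A).hom =
    Spec.map (mu R A) := by
  rw [diagonal_SpecMap, Category.assoc, Iso.inv_hom_id, Category.comp_id]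

variable {R A}

/-- `(L p^* K)|` along `e : Y ≅ Y₁` is `L(e ≫ p)^* K`. -/
theorem nonempty_lpull_restrict {X Y Y₁ : Scheme.{u}} (j : Y ⟶ Y₁) [IsOpenImmersion j] (p : Y₁ ⟶ X)
    (q : Y ⟶ X) (h : j ≫ p = q) [DCoh.HasLpull p] [DCoh.HasLpull q] :
    Nonempty (DCoh.Lpull p ⋙ restrictD j ≅ DCoh.Lpull q) := by
  obtain ⟨e⟩ := PerfB.LpullOpens.nonempty_lpullRestrict j p q (𝟙 X) (by rw [h, Category.comp_id])
  exact ⟨e ≪≫ Functor.isoWhiskerRight (Dcoh.LocalD.restrictIdIso X) _ ≪≫ Functor.leftUnitor _⟩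

variable (R A)

section Target

variable [DRing.HasLBaseChange (Algebra.TensorProduct.includeLeftRingHom : A →+* TensorProduct R A A)]
  [DCoh.HasLpull (pullback.fst (sm R A) (sm R A))]

/-- `(k ⊗_A (A ⊗ A))~` on `Spec A ×_{Spec R} Spec A` is `L pr₁^* k~`. -/
theorem nonempty_target : Nonempty (DRing.LBaseChange
    (Algebra.TensorProduct.includeLeftRingHom : A →+* TensorProduct R A A) ⋙
      tD (CommRingCat.of (A ⊗[R] A)) ⋙ restrictD (pullbackSpecIso R A A).hom ≅
      tD (CommRingCat.of A) ⋙ DCoh.Lpull (pullback.fst (sm R A) (sm R A))) := by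
  have h0 : DCoh.HasLpull (Spec.map (inl R A)) := S0959.result _
  obtain ⟨e₁⟩ := S1055.result
    (Algebra.TensorProduct.includeLeftRingHom : A →+* TensorProduct R A A)
  obtain ⟨e₂⟩ := nonempty_lpull_restrict (pullbackSpecIso R A A).hom (Spec.map (inl R A))
    (pullback.fst (sm R A) (sm R A)) (pullbackSpecIso_hom_fst R A A)
  exact ⟨(Functor.associator _ _ _).symm ≪≫ Functor.isoWhiskerRight e₁ _ ≪≫
    Functor.associator _ _ _ ≪≫ Functor.isoWhiskerLeft _ e₂⟩

/-- A chosen isomorphism. -/
noncomputable def target : DRing.LBaseChange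
    (Algebra.TensorProduct.includeLeftRingHom : A →+* TensorProduct R A A) ⋙
      tD (CommRingCat.of (A ⊗[R] A)) ⋙ restrictD (pullbackSpecIso R A A).hom ≅
      tD (CommRingCat.of A) ⋙ DCoh.Lpull (pullback.fst (sm R A) (sm R A)) :=
  (nonempty_target R A).some

variable {R A}

/-- The arrow to `L pr₁^* k~` given by `x : F ⟶ k ⊗_A (A ⊗ A)`. -/
noncomputable def toPair {k : Dual.D A} {F : Dual.D (A ⊗[R] A)} (x : F ⟶ (DRing.LBaseChange
    (Algebra.TensorProduct.includeLeftRingHom : A →+* TensorProduct R A A)).obj k) :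
    (restrictD (pullbackSpecIso R A A).hom).obj ((tD (CommRingCat.of (A ⊗[R] A))).obj F) ⟶
      (DCoh.Lpull (pullback.fst (sm R A) (sm R A))).obj ((tD (CommRingCat.of A)).obj k) :=
  (restrictD (pullbackSpecIso R A A).hom).map ((tD (CommRingCat.of (A ⊗[R] A))).map x) ≫
    (target R A).hom.app k

variable [PreservesFiniteLimits (Scheme.Modules.pushforward (pullback.diagonal (sm R A)))]
    [PreservesFiniteColimits (Scheme.Modules.pushforward (pullback.diagonal (sm R A)))]

/-- **Affine bridge, arrows.** -/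
theorem goodQ_toPair_iff {k : Dual.D A} {F : Dual.D (A ⊗[R] A)} (x : F ⟶ (DRing.LBaseChange
    (Algebra.TensorProduct.includeLeftRingHom : A →+* TensorProduct R A A)).obj k) :
    GoodQ (pullback.diagonal (sm R A)) (toPair x) ↔ AGood (mu R A) x := by
  rw [← goodQ_map_iff (ψ := mu R A) x, ← goodQ_restrictD_iff (i := pullback.diagonal (sm R A))
    (pullbackSpecIso R A A).hom (diagonal_comp R A)]
  constructor
  · intro h
    refine h.of_arrow_iso (Iso.refl _) ((target R A).symm.app k) ?_
    dsimp only [toPair]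
    rw [Iso.refl_hom, Category.id_comp, Category.assoc, Iso.app_hom, Iso.symm_hom]
    exact ((congrArg (fun z => _ ≫ z) ((target R A).hom_inv_id_app k)).trans
      (Category.comp_id _)).symm
  · intro h
    refine h.of_arrow_iso (Iso.refl _) ((target R A).app k) ?_
    rw [Iso.refl_hom, Category.id_comp]
    rfl

/-- Every good arrow to `L pr₁^* k~` comes from `D(A ⊗ A)`. -/
theorem exists_toPair_iso {k : Dual.D A} {F : DCoh.D (pullback (sm R A) (sm R A))}
    (ζ : F ⟶ (DCoh.Lpull (pullback.fst (sm R A) (sm R A))).obj ((tD (CommRingCat.of A)).obj k))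
    (t : (Dual3.pushD (pullback.diagonal (sm R A))).obj (OD _) ≅ F) :
    ∃ (F₀ : Dual.D (A ⊗[R] A)) (x : F₀ ⟶ (DRing.LBaseChange
      (Algebra.TensorProduct.includeLeftRingHom : A →+* TensorProduct R A A)).obj k)
      (a : (restrictD (pullbackSpecIso R A A).hom).obj
        ((tD (CommRingCat.of (A ⊗[R] A))).obj F₀) ≅ F), a.hom ≫ ζ = toPair x := by
  let F₀ : Dual.D (A ⊗[R] A) := (DRing.restrictD (mu R A).hom).obj (Dual.inD A A)
  let a : (restrictD (pullbackSpecIso R A A).hom).obj
        ((tD (CommRingCat.of (A ⊗[R] A))).obj F₀) ≅ F :=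
    (restrictD (pullbackSpecIso R A A).hom).mapIso
      (((theta (mu R A)).app (Dual.inD A A)).symm ≪≫
        (Dual3.pushD (Spec.map (mu R A))).mapIso (tildeOD (CommRingCat.of A)).symm) ≪≫
      ((pushRestrictDIso (pullbackSpecIso R A A).hom (diagonal_comp R A)).app (OD _)).symm ≪≫ t
  let y := a.hom ≫ ζ ≫ (target R A).inv.app k
  refine ⟨F₀, (tD (CommRingCat.of (A ⊗[R] A))).preimage
    ((restrictD (pullbackSpecIso R A A).hom).preimage y), a, ?_⟩
  dsimp only [toPair]
  rw [Functor.map_preimage, Functor.map_preimage]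
  dsimp only [y]
  rw [Category.assoc, Category.assoc]
  exact (congrArg (fun z => a.hom ≫ z) ((congrArg (fun z => ζ ≫ z)
    ((target R A).inv_hom_id_app k)).trans (Category.comp_id _))).symm

/-- **Affine bridge, existence.** -/
theorem exists_goodQ_iff (Rμ : Dual.D (TensorProduct R A A) ⥤ Dual.D A)
    (adjμ : DRing.restrictD (Algebra.TensorProduct.lmul' R (S := A)).toRingHom ⊣ Rμ)
    (k : Dual.D A) :
    (∃ (F : DCoh.D (pullback (sm R A) (sm R A)))
      (ζ : F ⟶ (DCoh.Lpull (pullback.fst (sm R A) (sm R A))).obj ((tD (CommRingCat.of A)).obj k)),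
      GoodQ (pullback.diagonal (sm R A)) ζ) ↔
    Nonempty (Rμ.obj ((DRing.LBaseChange
      (Algebra.TensorProduct.includeLeftRingHom : A →+* TensorProduct R A A)).obj k) ≅
        Dual.inD A A) := by
  constructor
  · rintro ⟨F, ζ, h⟩
    obtain ⟨t, ht⟩ := h
    obtain ⟨F₀, x, a, hx⟩ := exists_toPair_iso ζ t
    have h1 : GoodQ (pullback.diagonal (sm R A)) (toPair x) :=
      GoodQ.of_arrow_iso (ζ := ζ) ⟨t, ht⟩ a.symm (Iso.refl _) (by
        rw [← hx, Iso.symm_hom, Iso.inv_hom_id_assoc, Iso.refl_hom, Category.comp_id])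
    rw [goodQ_toPair_iff] at h1
    obtain ⟨t', ht'⟩ := h1
    exact ⟨(ht'.isoObj adjμ).symm⟩
  · rintro ⟨e⟩
    have h1 := (isUniv_counit adjμ ((DRing.LBaseChange
      (Algebra.TensorProduct.includeLeftRingHom : A →+* TensorProduct R A A)).obj k)).of_iso_left
        e.symm
    have h2 : AGood (mu R A) ((DRing.restrictD (mu R A).hom).map e.symm.hom ≫
        adjμ.counit.app _) := ⟨Iso.refl _, by rwa [Iso.refl_hom, Category.id_comp]⟩
    exact ⟨_, _, (goodQ_toPair_iff _).2 h2⟩

end Target

end Groth.Agent.Dual.H353.AffPair
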