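import Groth.Agent.Dual.H353.Arrow
import Groth.Agent.LoccohB.AdAffine
import Groth.Agent.Ega1.PtUniv

/-!
# Universal arrows over affine schemes

`ψ : C ⟶ B` a ring map with `(Spec ψ)_*` exact (e.g. `ψ` surjective), `s = Spec ψ`.

* `theta ψ : (M~) pushed forward = (M|_C)~` on derived categories;
* `isUAQ_iff_isUniv`: `(x : M|_C ⟶ V)~` is universal among objects with quasi-coherent cohomology iff `x` is
  universal in `D(C)` (`LoccohB.Univ.IsUniv`);
* `AGood`, `GoodQ`: the versions up to isomorphisms of arrows, `goodQ_map_iff`.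
-/

set_option autoImplicit false

universe u

open CategoryTheory CategoryTheory.Limits AlgebraicGeometry

attribute [local instance] HasDerivedCategory.standard

namespace Groth.Agent.Dual.H353.AffUniv

open Groth.Agent.Dual.H353.Arrow Groth.Agent.LoccohB.AdAffine Groth.Agent.LoccohB.Univ

section Theta

variable {C B : CommRingCat.{u}} (ψ : C ⟶ B)
  [PreservesFiniteLimits (Scheme.Modules.pushforward (Spec.map ψ))]
  [PreservesFiniteColimits (Scheme.Modules.pushforward (Spec.map ψ))]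

/-- `(Spec ψ)_* M~ ≅ (M|_C)~`. -/
noncomputable def theta : tD B ⋙ Dual3.pushD (Spec.map ψ) ≅ DRing.restrictD ψ.hom ⋙ tD C :=
  haveI : (ModuleCat.restrictScalars ψ.hom ⋙ tilde.functor C).Additive := inferInstance
  haveI : PreservesFiniteLimits (ModuleCat.restrictScalars.{u} ψ.hom ⋙ tilde.functor C) :=
    comp_preservesFiniteLimits _ _
  haveI : PreservesFiniteColimits (ModuleCat.restrictScalars.{u} ψ.hom ⋙ tilde.functor C) :=
    comp_preservesFiniteColimits _ _
  PerfA.ExactD.mapDComp (F := tilde.functor B) (G := Scheme.Modules.pushforward (Spec.map ψ))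
      (H := ModuleCat.restrictScalars.{u} ψ.hom ⋙ tilde.functor C) (Ega1.PtUniv.tildePushIso ψ) ≪≫
    (PerfA.ExactD.mapDComp (F := ModuleCat.restrictScalars.{u} ψ.hom) (G := tilde.functor C)
      (H := ModuleCat.restrictScalars.{u} ψ.hom ⋙ tilde.functor C) (Iso.refl _)).symm

instance full_tD : (tD C).Full := (S0997.result C).1

instance faithful_tD : (tD C).Faithful := (S0997.result C).2.1

lemma isQCohD_iff (K : DCoh.D (Spec C)) : DCoh.IsQCohD K ↔ ∃ M, Nonempty ((tD C).obj M ≅ K) :=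
  (S0997.result C).2.2 K

lemma isQCohD_tD (M : Dual.D C) : DCoh.IsQCohD ((tD C).obj M) :=
  (isQCohD_iff _).2 ⟨M, ⟨Iso.refl _⟩⟩

/-- The tilde of an arrow `M|_C ⟶ V`. -/
noncomputable def tArrow {N : Dual.D B} {V : Dual.D C} (x : (DRing.restrictD ψ.hom).obj N ⟶ V) :
    (Dual3.pushD (Spec.map ψ)).obj ((tD B).obj N) ⟶ (tD C).obj V :=
  (theta ψ).hom.app N ≫ (tD C).map x

variable {ψ}

lemma bijective_tArrow_iff {N : Dual.D B} {V : Dual.D C} (x : (DRing.restrictD ψ.hom).obj N ⟶ V)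
    (M : Dual.D B) :
    Function.Bijective (fun g : (tD B).obj M ⟶ (tD B).obj N =>
      (Dual3.pushD (Spec.map ψ)).map g ≫ tArrow ψ x) ↔
    Function.Bijective (fun g : M ⟶ N => (DRing.restrictD ψ.hom).map g ≫ x) := by
  have h1 : Function.Bijective (fun g : M ⟶ N => (tD B).map g) :=
    ⟨(tD B).map_injective, (tD B).map_surjective⟩
  have h2 : Function.Bijective (fun g : (DRing.restrictD ψ.hom).obj M ⟶ V => (tD C).map g) :=
    ⟨(tD C).map_injective, (tD C).map_surjective⟩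
  have h3 : Function.Bijective (fun g : (tD C).obj ((DRing.restrictD ψ.hom).obj M) ⟶
      (tD C).obj V => (theta ψ).hom.app M ≫ g) :=
    (((theta ψ).app M).symm.homFromEquiv (Z := (tD C).obj V)).bijective
  rw [← Function.Bijective.of_comp_iff _ h1, ← Function.Bijective.of_comp_iff' (h3.comp h2)]
  refine iff_of_eq (congrArg _ ?_)
  funext g
  simp only [Function.comp_apply, tArrow, Functor.map_comp]
  exact (theta ψ).hom.naturality_assoc g _

/-- **Universality can be tested in `D(C)`.** -/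
theorem isUAQ_iff_isUniv {N : Dual.D B} {V : Dual.D C} (x : (DRing.restrictD ψ.hom).obj N ⟶ V) :
    IsUAQ (Spec.map ψ) (tArrow ψ x) ↔ IsUniv ψ.hom x := by
  constructor
  · intro h M
    exact (bijective_tArrow_iff x M).1 (h _ (isQCohD_tD M))
  · intro h M hM
    obtain ⟨M₀, ⟨e⟩⟩ := (isQCohD_iff M).1 hM
    have h1 := (bijective_tArrow_iff x M₀).2 (h M₀)
    have h2 : Function.Bijective (fun g : M ⟶ (tD B).obj N => e.hom ≫ g) :=
      (e.symm.homFromEquiv (Z := (tD B).obj N)).bijective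
    have h3 : Function.Bijective (fun g : (Dual3.pushD (Spec.map ψ)).obj ((tD B).obj M₀) ⟶
        (tD C).obj V => (Dual3.pushD (Spec.map ψ)).map e.inv ≫ g) :=
      (((Dual3.pushD (Spec.map ψ)).mapIso e).homFromEquiv (Z := (tD C).obj V)).bijective
    convert h3.comp (h1.comp h2) using 1
    funext g
    simp

end Theta

section General

variable {Z Y : Scheme.{u}} (i : Z ⟶ Y) [PreservesFiniteLimits (Scheme.Modules.pushforward i)]
  [PreservesFiniteColimits (Scheme.Modules.pushforward i)]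

/-- The arrow `ζ : F ⟶ L` is universal among objects with quasi-coherent cohomology, up to some
identification `i_* O_Z ≅ F`. -/
def GoodQ {F L : DCoh.D Y} (ζ : F ⟶ L) : Prop :=
  ∃ t : (Dual3.pushD i).obj (OD Z) ≅ F, IsUAQ i (t.hom ≫ ζ)

variable {i}

lemma GoodQ.of_good {F L : DCoh.D Y} {ζ : F ⟶ L} (h : Good i ζ) : GoodQ i ζ := by
  obtain ⟨t, ht⟩ := h
  exact ⟨t, ht.isUAQ⟩

lemma isUAQ_of_iso_left {N N' : DCoh.D Z} {L : DCoh.D Y} {ξ : (Dual3.pushD i).obj N ⟶ L}
    (h : IsUAQ i ξ) (e : N' ≅ N) : IsUAQ i ((Dual3.pushD i).map e.hom ≫ ξ) := by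
  intro M hM
  have h1 : (fun φ : M ⟶ N' => (Dual3.pushD i).map φ ≫ (Dual3.pushD i).map e.hom ≫ ξ) =
      (fun φ : M ⟶ N => (Dual3.pushD i).map φ ≫ ξ) ∘ (e.homToEquiv (Z := M)) := by
    funext g
    change _ = (Dual3.pushD i).map (g ≫ e.hom) ≫ ξ
    rw [Functor.map_comp, Category.assoc]
  rw [h1]
  exact (h M hM).comp (Equiv.bijective _)

lemma isUAQ_of_iso_right {N : DCoh.D Z} {L L' : DCoh.D Y} {ξ : (Dual3.pushD i).obj N ⟶ L}
    (h : IsUAQ i ξ) (e : L ≅ L') : IsUAQ i (ξ ≫ e.hom) := by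
  intro M hM
  have h1 : (fun φ : M ⟶ N => (Dual3.pushD i).map φ ≫ ξ ≫ e.hom) =
      (e.homToEquiv (Z := (Dual3.pushD i).obj M)) ∘
        (fun φ : M ⟶ N => (Dual3.pushD i).map φ ≫ ξ) := by
    funext g
    change _ = ((Dual3.pushD i).map g ≫ ξ) ≫ e.hom
    rw [Category.assoc]
  rw [h1]
  exact (Equiv.bijective _).comp (h M hM)

lemma GoodQ.of_arrow_iso {F L F' L' : DCoh.D Y} {ζ : F ⟶ L} {ζ' : F' ⟶ L'} (h : GoodQ i ζ)
    (a : F ≅ F') (b : L ≅ L') (w : a.hom ≫ ζ' = ζ ≫ b.hom) : GoodQ i ζ' := by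
  obtain ⟨t, ht⟩ := h
  refine ⟨t ≪≫ a, ?_⟩
  have h1 := isUAQ_of_iso_right ht b
  rwa [Category.assoc, ← w, ← Category.assoc] at h1

end General

section Good

variable {C B : CommRingCat.{u}} (ψ : C ⟶ B)

/-- The algebraic version: `x : F ⟶ V` in `D(C)` is universal up to an identification `B|_C ≅ F`. -/
def AGood {F V : Dual.D C} (x : F ⟶ V) : Prop :=
  ∃ t : (DRing.restrictD ψ.hom).obj (Dual.inD B B) ≅ F, IsUniv ψ.hom (t.hom ≫ x)

/-- `O_{Spec B} ≅ B~`. -/
noncomputable def tildeOD (B : CommRingCat.{u}) : OD (Spec B) ≅ (tD B).obj (Dual.inD B B) :=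
  ((tilde.functor B).mapDerivedCategorySingleFunctor 0).symm.app (ModuleCat.of B B)

variable {ψ} [PreservesFiniteLimits (Scheme.Modules.pushforward (Spec.map ψ))]
  [PreservesFiniteColimits (Scheme.Modules.pushforward (Spec.map ψ))]

/-- **The affine dictionary.** -/
theorem goodQ_map_iff {F V : Dual.D C} (x : F ⟶ V) :
    GoodQ (Spec.map ψ) ((tD C).map x) ↔ AGood ψ x := by
  constructor
  · rintro ⟨t, ht⟩
    let t₁ : (tD C).obj ((DRing.restrictD ψ.hom).obj (Dual.inD B B)) ≅ (tD C).obj F :=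
      ((theta ψ).app (Dual.inD B B)).symm ≪≫ (Dual3.pushD (Spec.map ψ)).mapIso (tildeOD B).symm ≪≫ t
    let t₀ : (DRing.restrictD ψ.hom).obj (Dual.inD B B) ≅ F := (tD C).preimageIso t₁
    refine ⟨t₀, (isUAQ_iff_isUniv _).1 ?_⟩
    have h1 := isUAQ_of_iso_left ht (tildeOD B).symm
    have h2 : (Dual3.pushD (Spec.map ψ)).map (tildeOD B).symm.hom ≫ t.hom ≫ (tD C).map x =
        tArrow ψ (t₀.hom ≫ x) := by
      dsimp only [tArrow]
      rw [Functor.map_comp]
      have h3 : (tD C).map t₀.hom = t₁.hom := (tD C).map_preimage t₁.hom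
      rw [h3]
      simp only [t₁, Iso.trans_hom, Iso.symm_hom, Functor.mapIso_hom, Category.assoc]
      exact ((theta ψ).hom_inv_id_app_assoc (Dual.inD B B) _).symm
    rwa [h2] at h1
  · rintro ⟨t, ht⟩
    have h1 := (isUAQ_iff_isUniv (t.hom ≫ x)).2 ht
    have h2 := isUAQ_of_iso_left h1 (tildeOD B)
    refine ⟨(Dual3.pushD (Spec.map ψ)).mapIso (tildeOD B) ≪≫ (theta ψ).app (Dual.inD B B) ≪≫
      (tD C).mapIso t, ?_⟩
    convert h2 using 1
    simp only [Iso.trans_hom, Functor.mapIso_hom, Category.assoc, tArrow, Functor.map_comp]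
    rfl

end Good

end Groth.Agent.Dual.H353.AffUniv
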