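import Groth.Agent.LoccohB.RelUniq

/-!
# Base change of `A ⊗_R A`: the rings

For a base change `R → R'`, `A → A'` (`A' = R' ⊗_R A`): the map `tmap : A ⊗_R A → A' ⊗_{R'} A'` is the base change of
`A ⊗_R A` (`isPushout_tmap`).
-/

set_option autoImplicit false

universe u

open TensorProduct

namespace Groth.Agent.Dual.H353.AlgRing

variable (R R' A A' : Type u) [CommRing R] [CommRing R'] [CommRing A] [CommRing A'] [Algebra R R']
  [Algebra R A] [Algebra R A'] [Algebra R' A'] [Algebra A A'] [IsScalarTower R R' A']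
  [IsScalarTower R A A']

/-- `A ⊗_R A → A' ⊗_{R'} A'`. -/
noncomputable def tmapHom : (A ⊗[R] A) →ₐ[R] (A' ⊗[R'] A') :=
  Algebra.TensorProduct.lift
    ((Algebra.TensorProduct.includeLeft : A' →ₐ[R'] A' ⊗[R'] A').restrictScalars R |>.comp
      (IsScalarTower.toAlgHom R A A'))
    ((Algebra.TensorProduct.includeRight : A' →ₐ[R'] A' ⊗[R'] A').restrictScalars R |>.comp
      (IsScalarTower.toAlgHom R A A'))
    (fun _ _ => Commute.all _ _)

/-- `A ⊗_R A → A' ⊗_{R'} A'`. -/
noncomputable abbrev tmap : (A ⊗[R] A) →+* (A' ⊗[R'] A') := (tmapHom R R' A A').toRingHom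

lemma tmapHom_tmul (a b : A) : tmapHom R R' A A' (a ⊗ₜ b) = (algebraMap A A' a) ⊗ₜ (algebraMap A A' b) := by
  change ((algebraMap A A' a) ⊗ₜ[R'] (1 : A')) * ((1 : A') ⊗ₜ[R'] (algebraMap A A' b)) = _
  rw [Algebra.TensorProduct.tmul_mul_tmul, mul_one, one_mul]

lemma tmap_tmul (a b : A) : tmap R R' A A' (a ⊗ₜ b) = (algebraMap A A' a) ⊗ₜ (algebraMap A A' b) :=
  tmapHom_tmul R R' A A' a b

lemma lmul_tmap : (Algebra.TensorProduct.lmul' R' (S := A')).toRingHom.comp (tmap R R' A A') =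
    (algebraMap A A').comp (Algebra.TensorProduct.lmul' R (S := A)).toRingHom := by
  refine RingHom.ext fun x => ?_
  induction x using TensorProduct.induction_on with
  | zero => simp only [_root_.map_zero]
  | add x y hx hy => simp only [_root_.map_add, hx, hy]
  | tmul a b =>
    rw [RingHom.comp_apply, RingHom.comp_apply, tmap_tmul]
    change Algebra.TensorProduct.lmul' R' ((algebraMap A A' a) ⊗ₜ[R'] (algebraMap A A' b)) =
      algebraMap A A' (Algebra.TensorProduct.lmul' R (a ⊗ₜ[R] b))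
    rw [Algebra.TensorProduct.lmul'_apply_tmul, Algebra.TensorProduct.lmul'_apply_tmul, _root_.map_mul]

/-- `R' ⊗_R (A ⊗_R A) ≅ A' ⊗_{R'} A'`. -/
noncomputable def equivAux [Algebra.IsPushout R R' A A'] : R' ⊗[R] (A ⊗[R] A) ≃ₗ[R'] A' ⊗[R'] A' :=
  AlgebraTensorModule.distribBaseChange R R' A A ≪≫ₗ
    TensorProduct.congr (Algebra.IsPushout.equiv R R' A A').toLinearEquiv
      (Algebra.IsPushout.equiv R R' A A').toLinearEquiv

lemma equivAux_tmul [Algebra.IsPushout R R' A A'] (x : A ⊗[R] A) :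
    equivAux R R' A A' (1 ⊗ₜ x) = tmapHom R R' A A' x := by
  induction x using TensorProduct.induction_on with
  | zero => rw [TensorProduct.tmul_zero, _root_.map_zero, _root_.map_zero]
  | add x y hx hy => rw [TensorProduct.tmul_add, _root_.map_add, _root_.map_add, hx, hy]
  | tmul a b =>
    rw [tmapHom_tmul]
    dsimp only [equivAux, LinearEquiv.trans_apply]
    rw [AlgebraTensorModule.distribBaseChange_tmul, TensorProduct.congr_tmul]
    change (Algebra.IsPushout.equiv R R' A A' (1 ⊗ₜ a)) ⊗ₜ (Algebra.IsPushout.equiv R R' A A' (1 ⊗ₜ b)) = _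
    rw [Algebra.IsPushout.equiv_tmul, Algebra.IsPushout.equiv_tmul, _root_.map_one, one_mul, one_mul]

/-- `A' ⊗_{R'} A'` is the base change of `A ⊗_R A`. -/
theorem isPushout_tmap [Algebra.IsPushout R R' A A'] : letI := (tmap R R' A A').toAlgebra
    ∃ (_ : IsScalarTower R (A ⊗[R] A) (A' ⊗[R'] A')),
      Algebra.IsPushout R R' (A ⊗[R] A) (A' ⊗[R'] A') := by
  let _ := (tmap R R' A A').toAlgebra
  have t1 : IsScalarTower R (A ⊗[R] A) (A' ⊗[R'] A') :=
    IsScalarTower.of_algebraMap_eq fun r => ((tmapHom R R' A A').commutes r).symm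
  refine ⟨t1, ⟨IsBaseChange.of_equiv (equivAux R R' A A') fun x => ?_⟩⟩
  rw [equivAux_tmul]
  rfl

end Groth.Agent.Dual.H353.AlgRing
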