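import Groth.Agent.Dual.H353.AlgCancel
import Groth.Agent.Dual.H353.AlgRing
import Groth.Agent.Dual.H353.AffPair

/-!
# Relative dualizing complexes: arbitrary base change of the universal arrow, affine case

`R → A` flat of finite presentation, `R → R'` arbitrary, `A' = R' ⊗_R A`.  If `x : F ⟶ k ⊗_A (A ⊗_R A)` is good for
`μ : A ⊗_R A → A` and `k` is relatively perfect, then its base change along `tmap : A ⊗_R A → A' ⊗_{R'} A'` is good for
`μ' : A' ⊗_{R'} A' → A'` (`aGood_lbc`).
-/

set_option autoImplicit false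

universe u

open CategoryTheory CategoryTheory.Limits TensorProduct

attribute [local instance] HasDerivedCategory.standard

namespace Groth.Agent.Dual.H353.AlgBC

open DerivedCategory Groth.Agent.LoccohB Groth.Agent.LoccohB.LBC Groth.Agent.LoccohB.BCUnit
  Groth.Agent.LoccohB.BCFlat Groth.Agent.LoccohB.BCMap Groth.Agent.LoccohB.BCArrow
  Groth.Agent.LoccohB.DBase Groth.Agent.LoccohB.Univ Groth.Agent.LoccohB.FlatLBC
  Groth.Agent.Dual.H353.AlgCancel Groth.Agent.Dual.H353.AlgRing Groth.Agent.Dual.H353.AffUniv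
  Groth.Agent.Dual.H353.AffPair

section Poly

attribute [local instance] MvPolynomial.algebraMvPolynomial

variable (R R' A A' : Type u) [CommRing R] [CommRing R'] [CommRing A] [CommRing A'] [Algebra R R']
  [Algebra R A] [Algebra R A'] [Algebra R' A'] [Algebra A A'] [IsScalarTower R R' A']
  [IsScalarTower R A A'] (n : ℕ) (x : Fin n → A)

/-- `A[x] → A ⊗_R A`, `a ↦ 1 ⊗ a`, `xᵢ ↦ xᵢ ⊗ 1`. -/
noncomputable def dC : MvPolynomial (Fin n) A →+* (A ⊗[R] A) :=
  MvPolynomial.eval₂Hom (Algebra.TensorProduct.includeRight : A →ₐ[R] A ⊗[R] A).toRingHom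
    (fun i => (x i) ⊗ₜ[R] 1)

lemma dC_C (a : A) : dC R A n x (MvPolynomial.C a) = (1 : A) ⊗ₜ[R] a :=
  MvPolynomial.eval₂Hom_C _ _ a

lemma dC_X (i : Fin n) : dC R A n x (MvPolynomial.X i) = (x i) ⊗ₜ[R] 1 :=
  MvPolynomial.eval₂Hom_X' _ _ i

lemma dC_map : (dC R' A' n (fun i => algebraMap A A' (x i))).comp (MvPolynomial.map (algebraMap A A')) =
    (tmap R R' A A').comp (dC R A n x) := by
  apply MvPolynomial.ringHom_ext
  · intro r
    rw [RingHom.comp_apply, RingHom.comp_apply, MvPolynomial.map_C, dC_C, dC_C, tmap_tmul, _root_.map_one]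
  · intro i
    rw [RingHom.comp_apply, RingHom.comp_apply, MvPolynomial.map_X, dC_X, dC_X, tmap_tmul, _root_.map_one]

lemma lmul_dC_C (a : A) : Algebra.TensorProduct.lmul' R (dC R A n x (MvPolynomial.C a)) = a := by
  rw [dC_C, Algebra.TensorProduct.lmul'_apply_tmul, one_mul]

lemma dC_algebraMap (r : R) : dC R A n x (algebraMap R (MvPolynomial (Fin n) A) r) =
    algebraMap R (A ⊗[R] A) r := by
  change dC R A n x (MvPolynomial.C (algebraMap R A r)) = (algebraMap R A r) ⊗ₜ[R] (1 : A)
  rw [dC_C, Algebra.algebraMap_eq_smul_one, TensorProduct.smul_tmul]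

/-- `A ⊗_R A` is a quotient of `A[x]`. -/
lemma dC_surjective (ψ : MvPolynomial (Fin n) R →ₐ[R] A) (hψ : Function.Surjective ψ) :
    Function.Surjective (dC R A n (fun i => ψ (MvPolynomial.X i))) := by
  intro z
  induction z using TensorProduct.induction_on with
  | zero => exact ⟨0, _root_.map_zero _⟩
  | add z w hz hw =>
    obtain ⟨z', rfl⟩ := hz
    obtain ⟨w', rfl⟩ := hw
    exact ⟨z' + w', _root_.map_add _ _ _⟩
  | tmul a b =>
    obtain ⟨p, rfl⟩ := hψ a
    refine ⟨MvPolynomial.map (algebraMap R A) p * MvPolynomial.C b, ?_⟩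
    rw [_root_.map_mul, dC_C]
    have h1 : (dC R A n (fun i => ψ (MvPolynomial.X i))).comp (MvPolynomial.map (algebraMap R A)) =
        (Algebra.TensorProduct.includeLeft : A →ₐ[R] A ⊗[R] A).toRingHom.comp ψ.toRingHom := by
      apply MvPolynomial.ringHom_ext
      · intro r
        rw [RingHom.comp_apply, MvPolynomial.map_C, dC_C]
        have h2 : ψ (MvPolynomial.C r) = algebraMap R A r := ψ.commutes r
        change _ = (ψ (MvPolynomial.C r)) ⊗ₜ[R] (1 : A)
        rw [h2, Algebra.algebraMap_eq_smul_one, TensorProduct.smul_tmul]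
      · intro i
        rw [RingHom.comp_apply, MvPolynomial.map_X, dC_X]
        rfl
    have h3 := congrArg (fun f => f p) h1
    change dC R A n (fun i => ψ (MvPolynomial.X i)) (MvPolynomial.map (algebraMap R A) p) =
      (ψ p) ⊗ₜ[R] (1 : A) at h3
    rw [h3, Algebra.TensorProduct.tmul_mul_tmul, mul_one, one_mul]

end Poly

section Univ

variable {R A : Type u} [CommRing R] [CommRing A] [Algebra R A] [Module.Flat R A]
  [Algebra.FinitePresentation R A] {n : ℕ} (ψ : MvPolynomial (Fin n) R →ₐ[R] A)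
  (hψ : Function.Surjective ψ)

include hψ in
attribute [local instance] MvPolynomial.algebraMvPolynomial in
/-- `k ⊗_A (A ⊗ A)` has a universal arrow over `A[x]`. -/
theorem exists_univ_dC
    [DRing.HasLBaseChange (Algebra.TensorProduct.includeLeftRingHom : A →+* TensorProduct R A A)]
    {k : Dual.D A} (hk : Dual2.IsRelPerfect R A k)
    {x : (DRing.restrictD (mu R A).hom).obj (Dual.inD A A) ⟶ (DRing.LBaseChange
      (Algebra.TensorProduct.includeLeftRingHom : A →+* TensorProduct R A A)).obj k}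
    (hx : IsUniv (mu R A).hom x) :
    ∃ (W : Dual.D (MvPolynomial (Fin n) A))
      (e₁ : (DRing.restrictD (dC R A n (fun i => ψ (MvPolynomial.X i)))).obj
        ((DRing.LBaseChange (Algebra.TensorProduct.includeLeftRingHom :
          A →+* TensorProduct R A A)).obj k) ⟶ W),
      IsUniv (dC R A n (fun i => ψ (MvPolynomial.X i))) e₁ := by
  have hrd : Dual2.IsRelDualizing R A (RAdj.RCoext (mu R A).hom) k :=
    ⟨hk, ⟨(hx.isoObj (RAdj.coextAdj (mu R A).hom)).symm⟩⟩
  obtain ⟨i⟩ := RelUniq.nonempty_iso_omega R A n ψ hψ (RAdj.RCoext (mu R A).hom)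
    (RAdj.coextAdj (mu R A).hom) hrd
  let _ : Algebra (MvPolynomial (Fin n) R) A := ψ.toRingHom.toAlgebra
  have t0 : IsScalarTower R (MvPolynomial (Fin n) R) A :=
    IsScalarTower.of_algebraMap_eq' ψ.comp_algebraMap.symm
  let _ : Algebra (MvPolynomial (Fin n) A) (A ⊗[R] A) := (RelUniq.psi' R A A n).toAlgebra
  obtain ⟨t1, t2⟩ := RelUniq.isPushout_aux R A A n
  have h : (algebraMap (MvPolynomial (Fin n) R) (MvPolynomial (Fin n) A)).Flat := RelUniq.flat_map R A n
  have h' : (algebraMap A (A ⊗[R] A)).Flat := RingHom.flat_algebraMap_iff.2 inferInstance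
  have hB := RelAsm285.isPerfect_of_flat ψ hψ
  have he := ((isUniv_counit (RAdj.coextAdj ψ.toRingHom)
    (Dual.inD (MvPolynomial (Fin n) R) (MvPolynomial (Fin n) R))).shift (n : ℤ)).of_iso_left i.symm
  have h1 := IsUniv.flat_of_isPerfect (MvPolynomial (Fin n) R) (MvPolynomial (Fin n) A) A (A ⊗[R] A)
    h h' hB he
  have h2 := h1.of_iso_left ((LBaseChangeIso (Algebra.TensorProduct.includeLeftRingHom :
    A →+* TensorProduct R A A) h').app k)
  exact ⟨_, _, h2⟩

end Univ

section Perf

/-- Perfectness over polynomial rings, for a ring map. -/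
lemma isPerfect_of_ringHom {A C : Type u} [CommRing A] [CommRing C] (j : A →+* C) (h1 : j.Flat)
    (h2 : j.FinitePresentation) {n : ℕ} (ρ : MvPolynomial (Fin n) A →+* C)
    (hρ : ∀ a, ρ (MvPolynomial.C a) = j a) (hs : Function.Surjective ρ) :
    DRing.IsPerfect (MvPolynomial (Fin n) A) ((DRing.restrictD ρ).obj (Dual.inD C C)) := by
  let _ := j.toAlgebra
  have h3 : Module.Flat A C := h1
  have h4 : Algebra.FinitePresentation A C := h2
  let ρ' : MvPolynomial (Fin n) A →ₐ[A] C :=
    { toRingHom := ρ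
      commutes' := hρ }
  exact RelAsm285.isPerfect_of_flat ρ' hs

variable {R A : Type u} [CommRing R] [CommRing A] [Algebra R A]

/-- `a ↦ 1 ⊗ a`. -/
noncomputable abbrev inr (R A : Type u) [CommRing R] [CommRing A] [Algebra R A] : A →+* (A ⊗[R] A) :=
  (Algebra.TensorProduct.includeRight : A →ₐ[R] A ⊗[R] A).toRingHom

/-- `inr` is `inl` followed by the swap. -/
lemma inr_eq : inr R A = (Algebra.TensorProduct.comm R A A).toRingEquiv.toRingHom.comp
    (algebraMap A (A ⊗[R] A)) := by
  refine RingHom.ext fun a => ?_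
  change (1 : A) ⊗ₜ[R] a = Algebra.TensorProduct.comm R A A (a ⊗ₜ[R] 1)
  rw [Algebra.TensorProduct.comm_tmul]

lemma flat_inr [Module.Flat R A] : (inr R A).Flat := by
  rw [inr_eq]
  exact RingHom.Flat.comp (RingHom.flat_algebraMap_iff.2 inferInstance)
    (RingHom.Flat.of_bijective (Algebra.TensorProduct.comm R A A).bijective)

lemma finitePresentation_inr [Algebra.FinitePresentation R A] : (inr R A).FinitePresentation := by
  rw [inr_eq]
  exact RingHom.FinitePresentation.comp
    (RingHom.FinitePresentation.of_bijective (Algebra.TensorProduct.comm R A A).bijective)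
    ((RingHom.finitePresentation_algebraMap).2 inferInstance)

variable [Module.Flat R A] [Algebra.FinitePresentation R A] {n : ℕ}
  (ψ : MvPolynomial (Fin n) R →ₐ[R] A) (hψ : Function.Surjective ψ)

include hψ in
/-- `A ⊗_R A` is perfect over `A[x]`. -/
theorem isPerfect_tensor : DRing.IsPerfect (MvPolynomial (Fin n) A)
    ((DRing.restrictD (dC R A n (fun i => ψ (MvPolynomial.X i)))).obj
      (Dual.inD (A ⊗[R] A) (A ⊗[R] A))) :=
  isPerfect_of_ringHom (inr R A) flat_inr finitePresentation_inr _
    (fun a => dC_C R A n _ a) (dC_surjective R A n ψ hψ)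

omit [Module.Flat R A] [Algebra.FinitePresentation R A] in
/-- `A` is perfect over `A[x]`. -/
theorem isPerfect_self (x : Fin n → A) : DRing.IsPerfect (MvPolynomial (Fin n) A)
    ((DRing.restrictD ((Algebra.TensorProduct.lmul' R (S := A)).toRingHom.comp (dC R A n x))).obj
      (Dual.inD A A)) :=
  isPerfect_of_ringHom (RingHom.id A) (RingHom.Flat.id A) (RingHom.FinitePresentation.id A) _
    (fun a => lmul_dC_C R A n x a) (fun a => ⟨MvPolynomial.C a, lmul_dC_C R A n x a⟩)

end Perf

section Abstract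

variable (R R' A A' : Type u) [CommRing R] [CommRing R'] [CommRing A] [CommRing A'] [Algebra R R']
  [Algebra R A] [Algebra R A'] [Algebra R' A'] [Algebra A A'] [IsScalarTower R R' A']
  [IsScalarTower R A A'] [Algebra.IsPushout R R' A A'] [Module.Flat R A]
  (C C' : Type u) [CommRing C] [CommRing C'] [Algebra R C] [Algebra R C'] [Algebra R' C']
  [Algebra C C'] [IsScalarTower R R' C'] [IsScalarTower R C C'] [Algebra.IsPushout R R' C C']
  [Module.Flat R C] [Algebra C A] [Algebra C' A'] [Algebra C A'] [IsScalarTower C A A']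
  [IsScalarTower C C' A']
  [DRing.HasLBaseChange (algebraMap C C')] [DRing.HasLBaseChange (algebraMap A A')]
  [IsIso (bcm C C' A A')]
  (n : ℕ) (d : MvPolynomial (Fin n) A →+* C) (d' : MvPolynomial (Fin n) A' →+* C')
  (hR : ∀ r : R, d (algebraMap R _ r) = algebraMap R C r)
  (hR' : ∀ r : R', d' (algebraMap R' _ r) = algebraMap R' C' r)
  (hd : ∀ a : A, algebraMap C A (d (MvPolynomial.C a)) = a)
  (hd' : ∀ a : A', algebraMap C' A' (d' (MvPolynomial.C a)) = a)
  (hdd' : d'.comp (MvPolynomial.map (algebraMap A A')) = (algebraMap C C').comp d)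

include R R' hR hR' hd hd' hdd'

attribute [local instance] MvPolynomial.algebraMvPolynomial in
/-- The tower theorem for polynomial rings. -/
theorem isUniv_lbcArrow_poly
    (hC : DRing.IsPerfect (MvPolynomial (Fin n) A) ((DRing.restrictD d).obj (Dual.inD C C)))
    (hB : DRing.IsPerfect (MvPolynomial (Fin n) A)
      ((DRing.restrictD ((algebraMap C A).comp d)).obj (Dual.inD A A)))
    {X : Dual.D A} (eX : (DRing.LBaseChange (algebraMap A A')).obj X ≅ Dual.inD A' A')
    {V : Dual.D C} {W : Dual.D (MvPolynomial (Fin n) A)}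
    {x : (DRing.restrictD (algebraMap C A)).obj X ⟶ V} (hx : IsUniv (algebraMap C A) x)
    {e₁ : (DRing.restrictD d).obj V ⟶ W} (he₁ : IsUniv d e₁) :
    IsUniv (algebraMap C' A') (lbcArrow C C' A A' x) := by
  let _ : Algebra (MvPolynomial (Fin n) A) C := d.toAlgebra
  let _ : Algebra (MvPolynomial (Fin n) A') C' := d'.toAlgebra
  let _ : Algebra (MvPolynomial (Fin n) A) A := ((algebraMap C A).comp d).toAlgebra
  let _ : Algebra (MvPolynomial (Fin n) A') A' := ((algebraMap C' A').comp d').toAlgebra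
  let _ : Algebra (MvPolynomial (Fin n) A) C' :=
    (d'.comp (MvPolynomial.map (algebraMap A A'))).toAlgebra
  let _ : Algebra (MvPolynomial (Fin n) A) A' :=
    (((algebraMap C' A').comp d').comp (MvPolynomial.map (algebraMap A A'))).toAlgebra
  have t2 : IsScalarTower R (MvPolynomial (Fin n) A) (MvPolynomial (Fin n) A') :=
    IsScalarTower.of_algebraMap_eq fun r => by
      change MvPolynomial.C (algebraMap R A' r) =
        MvPolynomial.map (algebraMap A A') (MvPolynomial.C (algebraMap R A r))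
      rw [MvPolynomial.map_C, ← IsScalarTower.algebraMap_apply]
  have t7 : IsScalarTower R (MvPolynomial (Fin n) A) C :=
    IsScalarTower.of_algebraMap_eq fun r => (hR r).symm
  have t8 : IsScalarTower R (MvPolynomial (Fin n) A) A :=
    IsScalarTower.of_algebraMap_eq fun r => (hd (algebraMap R A r)).symm
  have t9 : IsScalarTower R' (MvPolynomial (Fin n) A') C' :=
    IsScalarTower.of_algebraMap_eq fun r => (hR' r).symm
  have t10 : IsScalarTower R' (MvPolynomial (Fin n) A') A' :=
    IsScalarTower.of_algebraMap_eq fun r => (hd' (algebraMap R' A' r)).symm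
  have t11 : IsScalarTower (MvPolynomial (Fin n) A) (MvPolynomial (Fin n) A') C' :=
    IsScalarTower.of_algebraMap_eq' rfl
  have t12 : IsScalarTower (MvPolynomial (Fin n) A) C C' :=
    IsScalarTower.of_algebraMap_eq' hdd'
  have t13 : IsScalarTower (MvPolynomial (Fin n) A) (MvPolynomial (Fin n) A') A' :=
    IsScalarTower.of_algebraMap_eq' rfl
  have t14 : IsScalarTower (MvPolynomial (Fin n) A) A A' :=
    IsScalarTower.of_algebraMap_eq' (by
      change ((algebraMap C' A').comp d').comp (MvPolynomial.map (algebraMap A A')) =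
        (algebraMap A A').comp ((algebraMap C A).comp d)
      rw [RingHom.comp_assoc, hdd', ← RingHom.comp_assoc, ← RingHom.comp_assoc,
        ← IsScalarTower.algebraMap_eq, ← IsScalarTower.algebraMap_eq])
  have t19 : IsScalarTower (MvPolynomial (Fin n) A) C A := IsScalarTower.of_algebraMap_eq' rfl
  have t20 : IsScalarTower (MvPolynomial (Fin n) A') C' A' :=
    IsScalarTower.of_algebraMap_eq' rfl
  have t17 : IsScalarTower R (MvPolynomial (Fin n) A') C' :=
    IsScalarTower.of_algebraMap_eq fun r => by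
      rw [IsScalarTower.algebraMap_apply R R' C',
        IsScalarTower.algebraMap_apply R R' (MvPolynomial (Fin n) A')]
      exact (hR' (algebraMap R R' r)).symm
  have t18 : IsScalarTower R (MvPolynomial (Fin n) A') A' :=
    IsScalarTower.of_algebraMap_eq fun r => by
      rw [IsScalarTower.algebraMap_apply R R' A',
        IsScalarTower.algebraMap_apply R R' (MvPolynomial (Fin n) A')]
      exact (hd' (algebraMap R' A' (algebraMap R R' r))).symm
  have p1 : Algebra.IsPushout R R' (MvPolynomial (Fin n) A) (MvPolynomial (Fin n) A') := by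
    have q1 : Algebra.IsPushout R A R' A' := Algebra.IsPushout.symm inferInstance
    exact ((Algebra.IsPushout.comp_iff R A R' A').2 inferInstance).symm
  have f1 : Module.Flat R (MvPolynomial (Fin n) A) := Module.Flat.trans R A _
  have l1 := LBC.hasLBaseChange (algebraMap (MvPolynomial (Fin n) A) (MvPolynomial (Fin n) A'))
  exact isUniv_lbcArrow_of_tower R R' (MvPolynomial (Fin n) A) (MvPolynomial (Fin n) A') C C' A A'
    hC hB (fun a => ⟨MvPolynomial.C a, hd' a⟩) eX hx he₁

end Abstract

section Main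

variable (R R' A A' : Type u) [CommRing R] [CommRing R'] [CommRing A] [CommRing A'] [Algebra R R']
  [Algebra R A] [Algebra R A'] [Algebra R' A'] [Algebra A A'] [IsScalarTower R R' A']
  [IsScalarTower R A A'] [Algebra.IsPushout R R' A A'] [Module.Flat R A]
  [Algebra.FinitePresentation R A]
  [DRing.HasLBaseChange (Algebra.TensorProduct.includeLeftRingHom : A →+* TensorProduct R A A)]
  [DRing.HasLBaseChange (tmap R R' A A')]

/-- **Arbitrary base change of the universal arrow of a relative dualizing complex, affine case.** -/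
theorem aGood_lbc {k : Dual.D A} (hk : Dual2.IsRelPerfect R A k) {F : Dual.D (A ⊗[R] A)}
    {x : F ⟶ (DRing.LBaseChange (Algebra.TensorProduct.includeLeftRingHom :
      A →+* TensorProduct R A A)).obj k} (hx : AGood (mu R A) x) :
    AGood (mu R' A') ((DRing.LBaseChange (tmap R R' A A')).map x) := by
  obtain ⟨t, hx⟩ := hx
  obtain ⟨n, ψ, hψ⟩ := Algebra.FiniteType.iff_quotient_mvPolynomial''.1
    (inferInstance : Algebra.FiniteType R A)
  obtain ⟨W, e₁, he₁⟩ := exists_univ_dC ψ hψ hk hx
  let y : Fin n → A := fun i => ψ (MvPolynomial.X i)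
  let _ : Algebra (A ⊗[R] A) (A' ⊗[R'] A') := (tmap R R' A A').toAlgebra
  obtain ⟨tRCC', pC⟩ := isPushout_tmap R R' A A'
  let _ : Algebra (A ⊗[R] A) A := (Algebra.TensorProduct.lmul' R (S := A)).toRingHom.toAlgebra
  let _ : Algebra (A' ⊗[R'] A') A' := (Algebra.TensorProduct.lmul' R' (S := A')).toRingHom.toAlgebra
  let _ : Algebra (A ⊗[R] A) A' := ((Algebra.TensorProduct.lmul' R' (S := A')).toRingHom.comp
    (tmap R R' A A')).toAlgebra
  have t1 : IsScalarTower (A ⊗[R] A) A A' :=
    IsScalarTower.of_algebraMap_eq' (lmul_tmap R R' A A')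
  have t2 : @IsScalarTower (A ⊗[R] A) (A' ⊗[R'] A') A' Algebra.toSMul Algebra.toSMul Algebra.toSMul :=
    IsScalarTower.of_algebraMap_eq' rfl
  have l1 := LBC.hasLBaseChange (algebraMap A A')
  have t3 : IsScalarTower R (A ⊗[R] A) A := IsScalarTower.of_algebraMap_eq
    fun r => ((Algebra.TensorProduct.lmul' R (S := A)).commutes r).symm
  have t4 : IsScalarTower R' (A' ⊗[R'] A') A' := IsScalarTower.of_algebraMap_eq
    fun r => ((Algebra.TensorProduct.lmul' R' (S := A')).commutes r).symm
  have t5 : IsScalarTower R (A' ⊗[R'] A') A' := IsScalarTower.of_algebraMap_eq fun r => by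
    rw [IsScalarTower.algebraMap_apply R R' A', IsScalarTower.algebraMap_apply R R' (A' ⊗[R'] A'),
      ← IsScalarTower.algebraMap_apply R' (A' ⊗[R'] A') A']
  have i1 : IsIso (bcm (A ⊗[R] A) (A' ⊗[R'] A') A A') :=
    isIso_bcm R R' (A ⊗[R] A) (A' ⊗[R'] A') A A'
  have h1 := isUniv_lbcArrow_poly R R' A A' (A ⊗[R] A) (A' ⊗[R'] A') n (dC R A n y)
    (dC R' A' n (fun i => algebraMap A A' (y i))) (dC_algebraMap R A n y)
    (dC_algebraMap R' A' n _) (lmul_dC_C R A n y) (lmul_dC_C R' A' n _)
    (dC_map R R' A A' n y) (isPerfect_tensor ψ hψ) (isPerfect_self y)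
    (lbcSelfIso (algebraMap A A') 0) hx he₁
  refine ⟨(DRing.restrictD (mu R' A').hom).mapIso (lbcSelfIso (algebraMap A A') 0).symm ≪≫
    ((asIso (bcm (A ⊗[R] A) (A' ⊗[R'] A') A A')).app (Dual.inD A A)).symm ≪≫
    (DRing.LBaseChange (tmap R R' A A')).mapIso t, ?_⟩
  have h2 := h1.of_iso_left (lbcSelfIso (algebraMap A A') 0).symm
  refine (congrArg (IsUniv (algebraMap (A' ⊗[R'] A') A')) ?_).mp h2
  dsimp only [lbcArrow, Iso.trans_hom, Iso.symm_hom, Functor.mapIso_hom, Iso.app_inv, asIso_inv]
  rw [Functor.map_comp, NatIso.isIso_inv_app, Category.assoc, Category.assoc]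
  rfl

end Main

end Groth.Agent.Dual.H353.AlgBC
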