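import Groth.Agent.LoccohB.RelBC2

/-!
# Base change of universal arrows: cancellation

Rings `D → C → B` over `R`, all flat over `R`, with `C` and `B` perfect over `D` (but `B` not necessarily over `C`) and a
base change `R → R'`.  If `x : ψ_* X ⟶ V` (`ψ : C → B`) is universal, `X ≅ B[0]`, and there is a universal arrow
`V|_D ⟶ W` for `D → C`, then the base change of `x` is universal (`isUniv_lbcArrow_of_tower`).
-/

set_option autoImplicit false

universe u

open CategoryTheory CategoryTheory.Limits CategoryTheory.Functor TensorProduct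

attribute [local instance] HasDerivedCategory.standard

namespace Groth.Agent.Dual.H353.AlgCancel

open DerivedCategory Groth.Agent.LoccohB Groth.Agent.LoccohB.LBC Groth.Agent.LoccohB.BCUnit
  Groth.Agent.LoccohB.BCFlat Groth.Agent.LoccohB.BCMap Groth.Agent.LoccohB.BCArrow
  Groth.Agent.LoccohB.DBase Groth.Agent.LoccohB.Univ

section Cancel

variable {A B C : Type u} [CommRing A] [CommRing B] [CommRing C] (φ : A →+* B) (ψ : B →+* C)
  (χ : A →+* C) (hχ : χ = ψ.comp φ)

/-- The composite of two arrows. -/
noncomputable def compArrow {X : Dual.D C} {L : Dual.D B} {M : Dual.D A}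
    (e : (DRing.restrictD ψ).obj X ⟶ L) (e' : (DRing.restrictD φ).obj L ⟶ M) :
    (DRing.restrictD χ).obj X ⟶ M :=
  (LBC.restrictDComp φ ψ χ hχ).inv.app X ≫ (DRing.restrictD φ).map e ≫ e'

lemma isUniv_compArrow {X : Dual.D C} {L : Dual.D B} {M : Dual.D A}
    {e : (DRing.restrictD ψ).obj X ⟶ L} {e' : (DRing.restrictD φ).obj L ⟶ M}
    (h : IsUniv ψ e) (h' : IsUniv φ e') : IsUniv χ (compArrow φ ψ χ hχ e e') :=
  IsUniv.comp φ ψ χ hχ h h'

/-- **Cancellation**: if the composite and the second arrow are universal, so is the first. -/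
lemma isUniv_of_compArrow {X : Dual.D C} {L : Dual.D B} {M : Dual.D A}
    {e : (DRing.restrictD ψ).obj X ⟶ L} {e' : (DRing.restrictD φ).obj L ⟶ M}
    (h' : IsUniv φ e') (h : IsUniv χ (compArrow φ ψ χ hχ e e')) : IsUniv ψ e := by
  intro N
  have h1 : (fun g : N ⟶ X => (DRing.restrictD χ).map g ≫ compArrow φ ψ χ hχ e e') =
      (fun g => (LBC.restrictDComp φ ψ χ hχ).inv.app N ≫ g) ∘
      (fun g : (DRing.restrictD ψ).obj N ⟶ L => (DRing.restrictD φ).map g ≫ e') ∘
      (fun g : N ⟶ X => (DRing.restrictD ψ).map g ≫ e) := by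
    funext g
    dsimp only [Function.comp_apply, compArrow]
    rw [Functor.map_comp, Category.assoc]
    exact (LBC.restrictDComp φ ψ χ hχ).inv.naturality_assoc g _
  have h2 : Function.Bijective ((fun g : (DRing.restrictD φ).obj ((DRing.restrictD ψ).obj N) ⟶ M =>
      (LBC.restrictDComp φ ψ χ hχ).inv.app N ≫ g) ∘
      (fun g : (DRing.restrictD ψ).obj N ⟶ L => (DRing.restrictD φ).map g ≫ e')) :=
    Function.Bijective.comp (((LBC.restrictDComp φ ψ χ hχ).app N).homFromEquiv).bijective (h' _)
  have h3 := h N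
  rw [h1, ← Function.comp_assoc] at h3
  exact (Function.Bijective.of_comp_iff' h2 _).1 h3

end Cancel

section Aut

variable {C B : Type u} [CommRing C] [CommRing B] {ψ : C →+* B} (hψ : Function.Surjective ψ)

/-- Restriction of scalars along a surjection is full. -/
lemma full_restrictScalars (hψ : Function.Surjective ψ) : (ModuleCat.restrictScalars.{u} ψ).Full where
  map_surjective {M N} f := by
    refine ⟨ModuleCat.ofHom
      { toFun := fun m => f.hom m
        map_add' := fun a b => f.hom.map_add a b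
        map_smul' := fun b m => ?_ }, ?_⟩
    · obtain ⟨c, rfl⟩ := hψ b
      exact f.hom.map_smul c m
    · rfl

include hψ in
/-- Maps `B|_C[n] ⟶ B|_C[n]` come from `B`, for `C → B` surjective. -/
lemma exists_map_eq (n : ℤ) (M N : ModuleCat.{u} B)
    (f : (DRing.restrictD ψ).obj ((singleFunctor (ModuleCat.{u} B) n).obj M) ⟶
      (DRing.restrictD ψ).obj ((singleFunctor (ModuleCat.{u} B) n).obj N)) :
    ∃ g : (singleFunctor (ModuleCat.{u} B) n).obj M ⟶ (singleFunctor (ModuleCat.{u} B) n).obj N,
      (DRing.restrictD ψ).map g = f := by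
  have := full_restrictScalars hψ
  let κ := (ModuleCat.restrictScalars.{u} ψ).mapDerivedCategorySingleFunctor n
  let f' := κ.inv.app M ≫ f ≫ κ.hom.app N
  obtain ⟨f₁, hf₁⟩ := (singleFunctor (ModuleCat.{u} C) n).map_surjective f'
  obtain ⟨g, hg⟩ := (ModuleCat.restrictScalars.{u} ψ).map_surjective f₁
  refine ⟨(singleFunctor (ModuleCat.{u} B) n).map g, ?_⟩
  have h1 := κ.hom.naturality g
  dsimp only [Functor.comp_map] at h1
  rw [← cancel_mono (κ.hom.app N)]
  refine h1.trans ?_
  rw [hg, hf₁]
  dsimp only [f']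
  rw [Iso.hom_inv_id_app_assoc]

include hψ in
/-- A universal arrow stays universal after an automorphism of `X|_C`, `X ≅ B[0]`. -/
lemma isUniv_aut_comp {X : Dual.D B} (eX : X ≅ Dual.inD B B) {L : Dual.D C}
    {e : (DRing.restrictD ψ).obj X ⟶ L} (h : IsUniv ψ e)
    (a : (DRing.restrictD ψ).obj X ≅ (DRing.restrictD ψ).obj X) : IsUniv ψ (a.hom ≫ e) := by
  have key : ∀ f : (DRing.restrictD ψ).obj X ⟶ (DRing.restrictD ψ).obj X,
      ∃ g : X ⟶ X, (DRing.restrictD ψ).map g = f := by
    intro f
    obtain ⟨g, hg⟩ := exists_map_eq hψ 0 (ModuleCat.of B B) (ModuleCat.of B B)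
      ((DRing.restrictD ψ).map eX.inv ≫ f ≫ (DRing.restrictD ψ).map eX.hom)
    refine ⟨eX.hom ≫ g ≫ eX.inv, ?_⟩
    rw [Functor.map_comp, Functor.map_comp, hg, Category.assoc, Category.assoc,
      ← Functor.map_comp, Iso.hom_inv_id, CategoryTheory.Functor.map_id, Category.comp_id,
      ← Functor.map_comp_assoc, Iso.hom_inv_id, CategoryTheory.Functor.map_id, Category.id_comp]
  obtain ⟨g, hg⟩ := key a.hom
  obtain ⟨g', hg'⟩ := key a.inv
  have hinj : ∀ {p q : X ⟶ X}, (DRing.restrictD ψ).map p = (DRing.restrictD ψ).map q → p = q := by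
    intro p q hpq
    refine (h X).1 ?_
    dsimp only
    rw [hpq]
  have hg2 : IsIso g := by
    refine ⟨g', hinj ?_, hinj ?_⟩
    · rw [Functor.map_comp, hg, hg', Iso.hom_inv_id, CategoryTheory.Functor.map_id]
    · rw [Functor.map_comp, hg, hg', Iso.inv_hom_id, CategoryTheory.Functor.map_id]
  have h1 := h.of_iso_left (asIso g)
  rwa [asIso_hom, hg] at h1

end Aut

section Main

variable (R R' D D' C C' B B' : Type u) [CommRing R] [CommRing R'] [CommRing D] [CommRing D']
  [CommRing C] [CommRing C'] [CommRing B] [CommRing B'] [Algebra R R'] [Algebra R D] [Algebra R D']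
  [Algebra R C] [Algebra R C'] [Algebra R B] [Algebra R B']
  [Algebra R' D'] [Algebra R' C'] [Algebra R' B'] [Algebra D D'] [Algebra C C'] [Algebra B B']
  [Algebra D C] [Algebra D C'] [Algebra D B] [Algebra D B'] [Algebra C B] [Algebra C B']
  [Algebra D' C'] [Algebra D' B'] [Algebra C' B']
  [IsScalarTower R R' D'] [IsScalarTower R D D'] [IsScalarTower R R' C'] [IsScalarTower R C C']
  [IsScalarTower R R' B'] [IsScalarTower R B B'] [IsScalarTower R D C] [IsScalarTower R D B]
  [IsScalarTower R' D' C'] [IsScalarTower R' D' B']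
  [IsScalarTower D D' C'] [IsScalarTower D C C'] [IsScalarTower D D' B'] [IsScalarTower D B B']
  [IsScalarTower C C' B'] [IsScalarTower C B B'] [IsScalarTower R D' C'] [IsScalarTower R D' B']
  [IsScalarTower D C B] [IsScalarTower D' C' B']
  [Algebra.IsPushout R R' D D'] [Algebra.IsPushout R R' C C'] [Algebra.IsPushout R R' B B']
  [Module.Flat R D] [Module.Flat R C] [Module.Flat R B]
  [DRing.HasLBaseChange (algebraMap D D')] [DRing.HasLBaseChange (algebraMap C C')]
  [DRing.HasLBaseChange (algebraMap B B')]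
  [IsIso (bcm C C' B B')]

include R R' D D'

/-- **Base change of universal arrows**, tower form. -/
theorem isUniv_lbcArrow_of_tower
    (hC : DRing.IsPerfect D ((DRing.restrictD (algebraMap D C)).obj (Dual.inD C C)))
    (hB : DRing.IsPerfect D ((DRing.restrictD (algebraMap D B)).obj (Dual.inD B B)))
    (hsurj : Function.Surjective (algebraMap D' B'))
    {X : Dual.D B} (eX : (DRing.LBaseChange (algebraMap B B')).obj X ≅ Dual.inD B' B')
    {V : Dual.D C} {W : Dual.D D}
    {x : (DRing.restrictD (algebraMap C B)).obj X ⟶ V} (hx : IsUniv (algebraMap C B) x)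
    {e₁ : (DRing.restrictD (algebraMap D C)).obj V ⟶ W} (he₁ : IsUniv (algebraMap D C) e₁) :
    IsUniv (algebraMap C' B') (lbcArrow C C' B B' x) := by
  have i1 := isIso_bcm R R' D D' C C'
  have i2 := isIso_bcm R R' D D' B B'
  have hχ : algebraMap D B = (algebraMap C B).comp (algebraMap D C) :=
    IsScalarTower.algebraMap_eq D C B
  have hχ' : algebraMap D' B' = (algebraMap C' B').comp (algebraMap D' C') :=
    IsScalarTower.algebraMap_eq D' C' B'
  have hy := RelBC2.isUniv_lbcArrow R R' D D' B B' hB (isUniv_compArrow _ _ _ hχ hx he₁)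
  have he₁' := RelBC2.isUniv_lbcArrow R R' D D' C C' hC he₁
  refine isUniv_of_compArrow (algebraMap D' C') (algebraMap C' B') (algebraMap D' B') hχ' he₁' ?_
  -- compare the two arrows
  let s : (DRing.restrictD (algebraMap D' B')).obj ((DRing.LBaseChange (algebraMap B B')).obj X) ≅
      (DRing.LBaseChange (algebraMap D D')).obj ((DRing.restrictD (algebraMap D C)).obj
        ((DRing.restrictD (algebraMap C B)).obj X)) :=
    ((LBC.restrictDComp (algebraMap D' C') (algebraMap C' B') (algebraMap D' B') hχ').app _).symm ≪≫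
      (DRing.restrictD (algebraMap D' C')).mapIso ((asIso (bcm C C' B B')).app X).symm ≪≫
      ((asIso (bcm D D' C C')).app _).symm
  let s₂ : (DRing.restrictD (algebraMap D' B')).obj ((DRing.LBaseChange (algebraMap B B')).obj X) ≅
      (DRing.LBaseChange (algebraMap D D')).obj ((DRing.restrictD (algebraMap D C)).obj
        ((DRing.restrictD (algebraMap C B)).obj X)) :=
    ((asIso (bcm D D' B B')).app X).symm ≪≫ (DRing.LBaseChange (algebraMap D D')).mapIso
      ((LBC.restrictDComp (algebraMap D C) (algebraMap C B) (algebraMap D B) hχ).app X).symm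
  have h1 : compArrow (algebraMap D' C') (algebraMap C' B') (algebraMap D' B') hχ'
      (lbcArrow C C' B B' x) (lbcArrow D D' C C' e₁) =
      s.hom ≫ (DRing.LBaseChange (algebraMap D D')).map
        ((DRing.restrictD (algebraMap D C)).map x ≫ e₁) := by
    have h2 := (bcm D D' C C').naturality x
    dsimp only [Functor.comp_map, Functor.comp_obj] at h2
    have h4 : (DRing.restrictD (algebraMap D' C')).map ((DRing.LBaseChange (algebraMap C C')).map x) ≫
        inv ((bcm D D' C C').app V) = inv ((bcm D D' C C').app _) ≫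
          (DRing.LBaseChange (algebraMap D D')).map ((DRing.restrictD (algebraMap D C)).map x) := by
      rw [IsIso.eq_inv_comp, ← Category.assoc, IsIso.comp_inv_eq]
      exact h2.symm
    dsimp only [compArrow, lbcArrow, s, Iso.trans_hom, Iso.symm_hom, Iso.app_inv, Functor.mapIso_inv,
      asIso_inv, Functor.mapIso_hom]
    rw [Functor.map_comp, Functor.map_comp, Category.assoc, reassoc_of% h4]
    simp only [NatIso.isIso_inv_app, Category.assoc]
  have h2 : lbcArrow D D' B B' (compArrow (algebraMap D C) (algebraMap C B) (algebraMap D B) hχ x e₁) =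
      s₂.hom ≫ (DRing.LBaseChange (algebraMap D D')).map
        ((DRing.restrictD (algebraMap D C)).map x ≫ e₁) := by
    dsimp only [compArrow, lbcArrow, s₂, Iso.trans_hom, Iso.symm_hom, Iso.app_inv, Functor.mapIso_inv,
      asIso_inv, Functor.mapIso_hom]
    rw [Functor.map_comp, NatIso.isIso_inv_app, Category.assoc]
  have h3 : compArrow (algebraMap D' C') (algebraMap C' B') (algebraMap D' B') hχ'
      (lbcArrow C C' B B' x) (lbcArrow D D' C C' e₁) =
      (s ≪≫ s₂.symm).hom ≫ lbcArrow D D' B B'
        (compArrow (algebraMap D C) (algebraMap C B) (algebraMap D B) hχ x e₁) := by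
    rw [h1, h2]
    change _ = (s.hom ≫ s₂.inv) ≫ s₂.hom ≫ _
    rw [Category.assoc, Iso.inv_hom_id_assoc]
  rw [h3]
  exact isUniv_aut_comp hsurj eX hy _

end Main

end Groth.Agent.Dual.H353.AlgCancel
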