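import Groth.Prelude.Def_Dual3
import Groth.Agent.CohqA.ClosedPush
import Groth.Agent.PerfC.ClosedPush

/-!
# Universal arrows `i_* N ⟶ L` in `D(O_Y)`

For `i : Z ⟶ Y` with exact `i_*`:

* `IsUA i ξ`: `φ ↦ i_* φ ≫ ξ : Hom(M, N) → Hom(i_* M, L)` is bijective for all `M` in `D(O_Z)`;
* `IsUAQ i ξ`: the same for `M` with quasi-coherent cohomology;
* `isUA_iff_shift`: equivalence with the clause of `Dual3.IsRelDualizingPair`;
* `Good i ζ`: `ζ : F ⟶ L` is, up to some identification `i_* O_Z ≅ F`, universal; for a closed immersion every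
  identification works (`Good.forall`), so `Good` only depends on the isomorphism class of the arrow.
-/

set_option autoImplicit false

universe u

open CategoryTheory CategoryTheory.Limits AlgebraicGeometry

attribute [local instance] HasDerivedCategory.standard

namespace Groth.Agent.Dual.H353.Arrow

/-- `O_Z` in `D(O_Z)`. -/
noncomputable abbrev OD (Z : Scheme.{u}) : DCoh.D Z := DCoh.inD Z (Coh.structureModule Z)

section Basic

variable {Z Y : Scheme.{u}} (i : Z ⟶ Y) [PreservesFiniteLimits (Scheme.Modules.pushforward i)]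
  [PreservesFiniteColimits (Scheme.Modules.pushforward i)]

/-- `ξ : i_* N ⟶ L` is universal. -/
def IsUA {N : DCoh.D Z} {L : DCoh.D Y} (ξ : (Dual3.pushD i).obj N ⟶ L) : Prop :=
  ∀ M : DCoh.D Z, Function.Bijective fun φ : M ⟶ N => (Dual3.pushD i).map φ ≫ ξ

/-- `ξ : i_* N ⟶ L` is universal among objects with quasi-coherent cohomology. -/
def IsUAQ {N : DCoh.D Z} {L : DCoh.D Y} (ξ : (Dual3.pushD i).obj N ⟶ L) : Prop :=
  ∀ M : DCoh.D Z, DCoh.IsQCohD M →
    Function.Bijective fun φ : M ⟶ N => (Dual3.pushD i).map φ ≫ ξ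

variable {i}

lemma IsUA.isUAQ {N : DCoh.D Z} {L : DCoh.D Y} {ξ : (Dual3.pushD i).obj N ⟶ L} (h : IsUA i ξ) :
    IsUAQ i ξ := fun M _ => h M

/-- Change of the source. -/
lemma IsUA.of_iso_left {N N' : DCoh.D Z} {L : DCoh.D Y} {ξ : (Dual3.pushD i).obj N ⟶ L}
    (h : IsUA i ξ) (e : N' ≅ N) : IsUA i ((Dual3.pushD i).map e.hom ≫ ξ) := by
  intro M
  have h1 : (fun φ : M ⟶ N' => (Dual3.pushD i).map φ ≫ (Dual3.pushD i).map e.hom ≫ ξ) =
      (fun φ : M ⟶ N => (Dual3.pushD i).map φ ≫ ξ) ∘ (e.homToEquiv (Z := M)) := by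
    funext g
    change _ = (Dual3.pushD i).map (g ≫ e.hom) ≫ ξ
    rw [Functor.map_comp, Category.assoc]
  rw [h1]
  exact (h M).comp (Equiv.bijective _)

/-- Change of the target. -/
lemma IsUA.of_iso_right {N : DCoh.D Z} {L L' : DCoh.D Y} {ξ : (Dual3.pushD i).obj N ⟶ L}
    (h : IsUA i ξ) (e : L ≅ L') : IsUA i (ξ ≫ e.hom) := by
  intro M
  have h1 : (fun φ : M ⟶ N => (Dual3.pushD i).map φ ≫ ξ ≫ e.hom) =
      (e.homToEquiv (Z := (Dual3.pushD i).obj M)) ∘
        (fun φ : M ⟶ N => (Dual3.pushD i).map φ ≫ ξ) := by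
    funext g
    change _ = ((Dual3.pushD i).map g ≫ ξ) ≫ e.hom
    rw [Category.assoc]
  rw [h1]
  exact (Equiv.bijective _).comp (h M)

lemma IsUA.of_iso_right_iff {N : DCoh.D Z} {L L' : DCoh.D Y} {ξ : (Dual3.pushD i).obj N ⟶ L}
    (e : L ≅ L') : IsUA i (ξ ≫ e.hom) ↔ IsUA i ξ := by
  constructor
  · intro h
    have h1 := h.of_iso_right e.symm
    rwa [Category.assoc, Iso.symm_hom, Iso.hom_inv_id, Category.comp_id] at h1
  · intro h
    exact h.of_iso_right e

/-- Composition with a map `α` of the target through which the universal property is unchanged: two out of three. -/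
lemma IsUA.of_comp {N : DCoh.D Z} {L L' : DCoh.D Y} {ξ : (Dual3.pushD i).obj N ⟶ L} {β : L ⟶ L'}
    (hβ : ∀ M : DCoh.D Z, Function.Bijective fun g : (Dual3.pushD i).obj M ⟶ L => g ≫ β)
    (h : IsUA i (ξ ≫ β)) : IsUA i ξ := by
  intro M
  refine (Function.Bijective.of_comp_iff' (hβ M) _).1 ?_
  have h1 : (fun g : (Dual3.pushD i).obj M ⟶ L => g ≫ β) ∘
      (fun φ : M ⟶ N => (Dual3.pushD i).map φ ≫ ξ) =
      fun φ : M ⟶ N => (Dual3.pushD i).map φ ≫ ξ ≫ β := by
    funext g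
    simp only [Function.comp_apply, Category.assoc]
  rw [h1]
  exact h M

end Basic

section Shift

variable {Z Y : Scheme.{u}} {i : Z ⟶ Y} [PreservesFiniteLimits (Scheme.Modules.pushforward i)]
  [PreservesFiniteColimits (Scheme.Modules.pushforward i)]

/-- Universal arrows are stable under shift. -/
lemma IsUA.shift {N : DCoh.D Z} {L : DCoh.D Y} {ξ : (Dual3.pushD i).obj N ⟶ L} (h : IsUA i ξ)
    (n : ℤ) : IsUA i (((Dual3.pushD i).commShiftIso n).hom.app N ≫ ξ⟦n⟧') := by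
  intro M
  let e : M ≅ (M⟦(-n)⟧)⟦n⟧ := (shiftNegShift M n).symm
  have h1 : (fun g : M ⟶ N⟦n⟧ => (Dual3.pushD i).map g ≫
      ((Dual3.pushD i).commShiftIso n).hom.app N ≫ ξ⟦n⟧') ∘
      (fun g : (M⟦(-n)⟧)⟦n⟧ ⟶ N⟦n⟧ => e.hom ≫ g) ∘
      (fun g : M⟦(-n)⟧ ⟶ N => g⟦n⟧') =
      (fun g : ((Dual3.pushD i).obj (M⟦(-n)⟧))⟦n⟧ ⟶ L⟦n⟧ =>
        ((Dual3.pushD i).map e.hom ≫ ((Dual3.pushD i).commShiftIso n).hom.app _) ≫ g) ∘
      (fun g : (Dual3.pushD i).obj (M⟦(-n)⟧) ⟶ L => g⟦n⟧') ∘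
      (fun g : M⟦(-n)⟧ ⟶ N => (Dual3.pushD i).map g ≫ ξ) := by
    funext g
    dsimp only [Function.comp_apply]
    rw [Functor.map_comp, Category.assoc, Category.assoc, Functor.map_comp,
      Functor.commShiftIso_hom_naturality_assoc]
  have hb1 : Function.Bijective ((fun g : (M⟦(-n)⟧)⟦n⟧ ⟶ N⟦n⟧ => e.hom ≫ g) ∘
      (fun g : M⟦(-n)⟧ ⟶ N => g⟦n⟧')) :=
    Function.Bijective.comp (e.homFromEquiv (Z := N⟦n⟧)).symm.bijective
      ⟨(shiftFunctor _ n).map_injective, (shiftFunctor _ n).map_surjective⟩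
  refine (Function.Bijective.of_comp_iff _ hb1).1 ?_
  rw [h1]
  refine Function.Bijective.comp ?_ (Function.Bijective.comp
      ⟨(shiftFunctor _ n).map_injective, (shiftFunctor _ n).map_surjective⟩ (h _))
  exact (((Dual3.pushD i).mapIso e ≪≫ ((Dual3.pushD i).commShiftIso n).app
    (M⟦(-n)⟧)).homFromEquiv (Z := L⟦n⟧)).symm.bijective

lemma commShift_zero_comp {N : DCoh.D Z} {L : DCoh.D Y} (ξ : (Dual3.pushD i).obj N ⟶ L) :
    (Dual3.pushD i).map ((shiftFunctorZero (DCoh.D Z) ℤ).inv.app N) ≫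
      ((Dual3.pushD i).commShiftIso (0 : ℤ)).hom.app N ≫ ξ⟦(0 : ℤ)⟧' =
    ξ ≫ (shiftFunctorZero (DCoh.D Y) ℤ).inv.app L := by
  rw [Functor.commShiftIso_zero, Functor.CommShift.isoZero_hom_app, Category.assoc,
    ← Functor.map_comp_assoc, Iso.inv_hom_id_app]
  dsimp only [Functor.id_obj]
  rw [CategoryTheory.Functor.map_id, Category.id_comp]
  exact ((shiftFunctorZero (DCoh.D Y) ℤ).inv.naturality ξ).symm

/-- The clause of `Dual3.IsRelDualizingPair`. -/
lemma isUA_iff_shift {N : DCoh.D Z} {L : DCoh.D Y} (ξ : (Dual3.pushD i).obj N ⟶ L) :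
    IsUA i ξ ↔ ∀ (M : DCoh.D Z) (j : ℤ), Function.Bijective fun φ : M ⟶ N⟦j⟧ =>
      (Dual3.pushD i).map φ ≫ ((Dual3.pushD i).commShiftIso j).hom.app N ≫
        (shiftFunctor (DCoh.D Y) j).map ξ := by
  constructor
  · intro h M j
    exact h.shift j M
  · intro h
    have h0 : IsUA i (((Dual3.pushD i).commShiftIso (0 : ℤ)).hom.app N ≫ ξ⟦(0 : ℤ)⟧') :=
      fun M => h M 0
    have h1 := h0.of_iso_left ((shiftFunctorZero (DCoh.D Z) ℤ).symm.app N)
    rw [Iso.app_hom, Iso.symm_hom, commShift_zero_comp] at h1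
    exact (IsUA.of_iso_right_iff ((shiftFunctorZero (DCoh.D Y) ℤ).symm.app L)).1 h1

end Shift

section Closed

variable {Z Y : Scheme.{u}} (i : Z ⟶ Y)

/-- Direct image along a closed immersion is fully faithful on modules. -/
noncomputable def pushFullyFaithful [IsClosedImmersion i] :
    (Scheme.Modules.pushforward i).FullyFaithful :=
  haveI : IsIso (Scheme.Modules.pullbackPushforwardAdjunction i).counit := by
    have : ∀ M, IsIso ((Scheme.Modules.pullbackPushforwardAdjunction i).counit.app M) :=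
      fun M => inferInstance
    exact NatIso.isIso_of_isIso_app _
  (Scheme.Modules.pullbackPushforwardAdjunction i).fullyFaithfulROfIsIsoCounit

variable [PreservesFiniteLimits (Scheme.Modules.pushforward i)]
  [PreservesFiniteColimits (Scheme.Modules.pushforward i)]

/-- `i_*` on modules placed in degree `0`. -/
noncomputable def pushSingle (n : ℤ) : DerivedCategory.singleFunctor Z.Modules n ⋙ Dual3.pushD i ≅
    Scheme.Modules.pushforward i ⋙ DerivedCategory.singleFunctor Y.Modules n :=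
  (Scheme.Modules.pushforward i).mapDerivedCategorySingleFunctor n

variable {i}

/-- Every map `i_* M[n] ⟶ i_* N[n]` in `D(O_Y)` comes from a map `M[n] ⟶ N[n]`, `i` a closed immersion. -/
lemma exists_map_eq [IsClosedImmersion i] (n : ℤ) (M N : Z.Modules)
    (f : (Dual3.pushD i).obj ((DerivedCategory.singleFunctor Z.Modules n).obj M) ⟶
      (Dual3.pushD i).obj ((DerivedCategory.singleFunctor Z.Modules n).obj N)) :
    ∃ g : (DerivedCategory.singleFunctor Z.Modules n).obj M ⟶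
      (DerivedCategory.singleFunctor Z.Modules n).obj N, (Dual3.pushD i).map g = f := by
  let f' := (pushSingle i n).inv.app M ≫ f ≫ (pushSingle i n).hom.app N
  obtain ⟨f₁, hf₁⟩ := (DerivedCategory.singleFunctor Y.Modules n).map_surjective f'
  obtain ⟨g, hg⟩ := (pushFullyFaithful i).map_surjective f₁
  refine ⟨(DerivedCategory.singleFunctor Z.Modules n).map g, ?_⟩
  have h1 := (pushSingle i n).hom.naturality g
  dsimp only [Functor.comp_map] at h1
  rw [← cancel_mono ((pushSingle i n).hom.app N)]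
  refine h1.trans ?_
  rw [hg, hf₁]
  dsimp only [f']
  rw [Iso.hom_inv_id_app_assoc]

end Closed

section Good

variable {Z Y : Scheme.{u}} (i : Z ⟶ Y) [PreservesFiniteLimits (Scheme.Modules.pushforward i)]
  [PreservesFiniteColimits (Scheme.Modules.pushforward i)]

/-- The arrow `ζ : F ⟶ L` is universal, up to some identification `i_* O_Z ≅ F`. -/
def Good {F L : DCoh.D Y} (ζ : F ⟶ L) : Prop :=
  ∃ t : (Dual3.pushD i).obj (OD Z) ≅ F, IsUA i (t.hom ≫ ζ)

variable {i}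

lemma good_of_isUA {L : DCoh.D Y} {ξ : (Dual3.pushD i).obj (OD Z) ⟶ L} (h : IsUA i ξ) :
    Good i ξ := ⟨Iso.refl _, by rwa [Iso.refl_hom, Category.id_comp]⟩

/-- For a closed immersion every identification `i_* O_Z ≅ F` works. -/
lemma Good.forall [IsClosedImmersion i] {F L : DCoh.D Y} {ζ : F ⟶ L} (h : Good i ζ)
    (t : (Dual3.pushD i).obj (OD Z) ≅ F) : IsUA i (t.hom ≫ ζ) := by
  obtain ⟨s, hs⟩ := h
  obtain ⟨g, hg⟩ := exists_map_eq (i := i) 0 _ _ (t.hom ≫ s.inv)
  obtain ⟨g', hg'⟩ := exists_map_eq (i := i) 0 _ _ (s.hom ≫ t.inv)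
  have hinj : ∀ {a b : OD Z ⟶ OD Z}, (Dual3.pushD i).map a = (Dual3.pushD i).map b → a = b := by
    intro a b hab
    refine (hs (OD Z)).1 ?_
    dsimp only
    rw [hab]
  have e : OD Z ≅ OD Z :=
    { hom := g
      inv := g'
      hom_inv_id := hinj (by
        rw [Functor.map_comp, hg, hg', Category.assoc, Iso.inv_hom_id_assoc, Iso.hom_inv_id,
          CategoryTheory.Functor.map_id])
      inv_hom_id := hinj (by
        rw [Functor.map_comp, hg, hg', Category.assoc, Iso.inv_hom_id_assoc, Iso.hom_inv_id,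
          CategoryTheory.Functor.map_id]) }
  have hg2 : IsIso g := by
    refine ⟨g', hinj ?_, hinj ?_⟩
    · rw [Functor.map_comp, hg, hg', Category.assoc, Iso.inv_hom_id_assoc, Iso.hom_inv_id,
          CategoryTheory.Functor.map_id]
    · rw [Functor.map_comp, hg, hg', Category.assoc, Iso.inv_hom_id_assoc, Iso.hom_inv_id,
          CategoryTheory.Functor.map_id]
  have h1 := hs.of_iso_left (asIso g)
  rw [asIso_hom, hg, Category.assoc, Iso.inv_hom_id_assoc] at h1
  exact h1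

lemma good_iff_isUA [IsClosedImmersion i] {F L : DCoh.D Y} {ζ : F ⟶ L}
    (t : (Dual3.pushD i).obj (OD Z) ≅ F) : Good i ζ ↔ IsUA i (t.hom ≫ ζ) :=
  ⟨fun h => h.forall t, fun h => ⟨t, h⟩⟩

lemma good_self_iff [IsClosedImmersion i] {L : DCoh.D Y}
    {ξ : (Dual3.pushD i).obj (OD Z) ⟶ L} : Good i ξ ↔ IsUA i ξ := by
  rw [good_iff_isUA (Iso.refl _), Iso.refl_hom, Category.id_comp]

/-- `Good` only depends on the isomorphism class of the arrow. -/
lemma Good.of_arrow_iso {F L F' L' : DCoh.D Y} {ζ : F ⟶ L} {ζ' : F' ⟶ L'} (h : Good i ζ)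
    (a : F ≅ F') (b : L ≅ L') (w : a.hom ≫ ζ' = ζ ≫ b.hom) : Good i ζ' := by
  obtain ⟨t, ht⟩ := h
  refine ⟨t ≪≫ a, ?_⟩
  have h1 := ht.of_iso_right b
  rwa [Category.assoc, ← w, ← Category.assoc] at h1

lemma good_iff_of_arrow_iso {F L F' L' : DCoh.D Y} {ζ : F ⟶ L} {ζ' : F' ⟶ L'}
    (a : F ≅ F') (b : L ≅ L') (w : a.hom ≫ ζ' = ζ ≫ b.hom) : Good i ζ ↔ Good i ζ' := by
  refine ⟨fun h => h.of_arrow_iso a b w, fun h => h.of_arrow_iso a.symm b.symm ?_⟩
  rw [Iso.symm_hom, Iso.inv_comp_eq, ← Category.assoc, w, Category.assoc, Iso.symm_hom,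
    Iso.hom_inv_id, Category.comp_id]

lemma Good.comp_iso {F L L' : DCoh.D Y} {ζ : F ⟶ L} (h : Good i ζ) (b : L ≅ L') :
    Good i (ζ ≫ b.hom) :=
  h.of_arrow_iso (Iso.refl _) b (by rw [Iso.refl_hom, Category.id_comp])

lemma Good.iso_comp {F F' L : DCoh.D Y} {ζ : F ⟶ L} (h : Good i ζ) (a : F' ≅ F) :
    Good i (a.hom ≫ ζ) :=
  h.of_arrow_iso a.symm (Iso.refl _) (by
    rw [Iso.symm_hom, Iso.inv_hom_id_assoc, Iso.refl_hom, Category.comp_id])

end Good

section RelDualizing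

variable {X S : Scheme.{u}} {f : X ⟶ S} [DCoh.HasLpull (pullback.fst f f)]
    [PreservesFiniteLimits (Scheme.Modules.pushforward (pullback.diagonal f))]
    [PreservesFiniteColimits (Scheme.Modules.pushforward (pullback.diagonal f))]

lemma isRelDualizingPair_iff {K : DCoh.D X}
    {ξ : (Dual3.pushD (pullback.diagonal f)).obj (DCoh.inD X (Coh.structureModule X)) ⟶
      (DCoh.Lpull (pullback.fst f f)).obj K} :
    Dual3.IsRelDualizingPair f K ξ ↔
      (∀ m : ℤ, DCoh.IsPseudoCoherentD m K) ∧ DCoh.LocHasFiniteRelTorDim f K ∧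
        IsUA (pullback.diagonal f) ξ := by
  unfold Dual3.IsRelDualizingPair
  rw [isUA_iff_shift]

/-- Relative dualizing complexes in terms of `Good`. -/
lemma isRelDualizing_iff {K : DCoh.D X} : Dual3.IsRelDualizing f K ↔
      (∀ m : ℤ, DCoh.IsPseudoCoherentD m K) ∧ DCoh.LocHasFiniteRelTorDim f K ∧
        ∃ (F : DCoh.D (pullback f f)) (ζ : F ⟶ (DCoh.Lpull (pullback.fst f f)).obj K),
          Good (pullback.diagonal f) ζ := by
  constructor
  · rintro ⟨ξ, h⟩
    rw [isRelDualizingPair_iff] at h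
    exact ⟨h.1, h.2.1, _, ξ, good_of_isUA h.2.2⟩
  · rintro ⟨h1, h2, F, ζ, t, ht⟩
    exact ⟨t.hom ≫ ζ, isRelDualizingPair_iff.2 ⟨h1, h2, ht⟩⟩

end RelDualizing

end Groth.Agent.Dual.H353.Arrow
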