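import Groth.Agent.Dual.H352.Chart
import Mathlib.AlgebraicGeometry.PullbackCarrier
import Mathlib.RingTheory.TensorProduct.Basic
import Mathlib.RingTheory.IsTensorProduct

/-!
# Affine charts of a cartesian square

`exists_bcChart`: near every point of `X' = X ×_S S'` the square is, up to open immersions, `Spec` of a pushout square.
-/

set_option autoImplicit false

universe u

open CategoryTheory CategoryTheory.Limits AlgebraicGeometry
open scoped TensorProduct

namespace Groth.Agent.Dual.H353.BCChart

variable {X S X' S' : Scheme.{u}} {f : X ⟶ S} {g : S' ⟶ S} {f' : X' ⟶ S'} {g' : X' ⟶ X}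

/-- Affine charts of a morphism below a given affine chart of the target. -/
theorem exists_baseChart (g : S' ⟶ S) {R : Type u} [CommRing R]
    (i : Spec (CommRingCat.of R) ⟶ S) [IsOpenImmersion i] (s : S') (hs : g s ∈ i.opensRange) :
    ∃ (R' : Type u) (_ : CommRing R') (_ : Algebra R R') (i' : Spec (CommRingCat.of R') ⟶ S')
      (_ : IsOpenImmersion i'), s ∈ i'.opensRange ∧
        i' ≫ g = Spec.map (CommRingCat.ofHom (algebraMap R R')) ≫ i := by
  obtain ⟨_, ⟨W, hW, rfl⟩, hsW, hW'⟩ := S'.isBasis_affineOpens.exists_subset_of_mem_open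
    (show s ∈ (g ⁻¹ᵁ i.opensRange : S'.Opens) from hs) (g ⁻¹ᵁ i.opensRange).2
  have h1 : Set.range (hW.fromSpec ≫ g) ⊆ Set.range i := by
    rintro _ ⟨y, rfl⟩
    have h2 : hW.fromSpec y ∈ hW.fromSpec.opensRange := ⟨y, rfl⟩
    rw [hW.opensRange_fromSpec] at h2
    exact hW' h2
  let τ : Spec Γ(S', W) ⟶ Spec (CommRingCat.of R) := IsOpenImmersion.lift i (hW.fromSpec ≫ g) h1
  have hτ : τ ≫ i = hW.fromSpec ≫ g := IsOpenImmersion.lift_fac _ _ _
  let _ : Algebra R Γ(S', W) := (Spec.preimage τ).hom.toAlgebra
  refine ⟨Γ(S', W), inferInstance, inferInstance, hW.fromSpec, inferInstance, ?_, ?_⟩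
  · rw [hW.opensRange_fromSpec]
    exact hsW
  · rw [← hτ]
    congr 1
    exact (Spec.map_preimage τ).symm

/-- **Affine charts of a cartesian square.** -/
theorem exists_bcChart [Flat f] [LocallyOfFinitePresentation f] (hsq : IsPullback g' f' f g) (x : X') :
    ∃ (R R' A A' : Type u) (_ : CommRing R) (_ : CommRing R') (_ : CommRing A) (_ : CommRing A')
      (_ : Algebra R R') (_ : Algebra R A) (_ : Algebra R A') (_ : Algebra R' A') (_ : Algebra A A')
      (_ : IsScalarTower R R' A') (_ : IsScalarTower R A A') (_ : Algebra.IsPushout R R' A A')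
      (_ : Module.Flat R A) (_ : Algebra.FinitePresentation R A)
      (j : Spec (CommRingCat.of A) ⟶ X) (_ : IsOpenImmersion j)
      (i : Spec (CommRingCat.of R) ⟶ S) (_ : IsOpenImmersion i)
      (j' : Spec (CommRingCat.of A') ⟶ X') (_ : IsOpenImmersion j')
      (i' : Spec (CommRingCat.of R') ⟶ S') (_ : IsOpenImmersion i'),
      j ≫ f = Spec.map (CommRingCat.ofHom (algebraMap R A)) ≫ i ∧
      j' ≫ f' = Spec.map (CommRingCat.ofHom (algebraMap R' A')) ≫ i' ∧
      j' ≫ g' = Spec.map (CommRingCat.ofHom (algebraMap A A')) ≫ j ∧ x ∈ Set.range j' := by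
  obtain ⟨R, A, _, _, _, j, _, i, _, h1, h2, hx, -, w⟩ := H352.Chart.exists_chart f (g' x) ⊤ trivial
  have hs : g (f' x) ∈ i.opensRange := by
    obtain ⟨y, hy⟩ := hx
    refine ⟨Spec.map (CommRingCat.ofHom (algebraMap R A)) y, ?_⟩
    have h3 := congr($(w) y)
    have h4 := congr($(hsq.w) x)
    change f (j y) = i _ at h3
    change f (g' x) = g (f' x) at h4
    rw [← h4, ← hy]
    exact h3.symm
  obtain ⟨R', _, _, i', _, hs', w'⟩ := exists_baseChart g i (f' x) hs
  let _ : Algebra R' (A ⊗[R] R') := Algebra.TensorProduct.rightAlgebra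
  let m := pullback.map (Spec.map (CommRingCat.ofHom (algebraMap R A)))
    (Spec.map (CommRingCat.ofHom (algebraMap R R'))) f g j i' i w.symm w'.symm
  let j' : Spec (CommRingCat.of (A ⊗[R] R')) ⟶ X' :=
    (pullbackSpecIso R A R').inv ≫ m ≫ hsq.isoPullback.inv
  have ho : IsOpenImmersion m := inferInstance
  have ho' : IsOpenImmersion j' := inferInstance
  refine ⟨R, R', A, A ⊗[R] R', inferInstance, inferInstance, inferInstance, inferInstance,
    inferInstance, inferInstance, inferInstance, inferInstance, inferInstance, inferInstance,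
    inferInstance, inferInstance, h1, h2, j, inferInstance, i, inferInstance, j', ho', i',
    inferInstance, w, ?_, ?_, ?_⟩
  · dsimp only [j']
    rw [Category.assoc, Category.assoc, IsPullback.isoPullback_inv_snd]
    dsimp only [m]
    rw [pullback.lift_snd, ← Category.assoc]
    congr 1
    exact pullbackSpecIso_inv_snd R A R'
  · dsimp only [j']
    rw [Category.assoc, Category.assoc, IsPullback.isoPullback_inv_fst]
    dsimp only [m]
    rw [pullback.lift_fst, ← Category.assoc]
    congr 1
    exact pullbackSpecIso_inv_fst R A R'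
  · have h5 : hsq.isoPullback.hom x ∈ Set.range m := by
      dsimp only [m]
      rw [Scheme.Pullback.range_map]
      constructor
      · change pullback.fst f g (hsq.isoPullback.hom x) ∈ Set.range j
        rw [← Scheme.Hom.comp_apply, IsPullback.isoPullback_hom_fst]
        exact hx
      · change pullback.snd f g (hsq.isoPullback.hom x) ∈ Set.range i'
        rw [← Scheme.Hom.comp_apply, IsPullback.isoPullback_hom_snd]
        exact hs'
    obtain ⟨z, hz⟩ := h5
    refine ⟨(pullbackSpecIso R A R').hom z, ?_⟩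
    change ((pullbackSpecIso R A R').hom ≫ j') z = x
    have h6 : (pullbackSpecIso R A R').hom ≫ j' = m ≫ hsq.isoPullback.inv :=
      Iso.hom_inv_id_assoc _ _
    rw [h6, Scheme.Hom.comp_apply, hz, ← Scheme.Hom.comp_apply, Iso.hom_inv_id]
    rfl

end Groth.Agent.Dual.H353.BCChart
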