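import Groth.Agent.PerfC.RelFlatLpull
import Groth.Agent.PerfC.SuppRed
import Groth.Agent.PerfC.PullRestrict
import Groth.Agent.PerfB.PullData
import Groth.Agent.PerfB.StructFlat
import Groth.Agent.CohqA.AffineBaseChange
import Groth.Agent.Dual.H353.Arrow

/-!
# `Lu^* i_* O_Z ≅ i'_* O_{Z'}` for a base change along `S' ⟶ S` of a closed immersion `i : Z ⟶ Y` of schemes flat over `S`
-/

set_option autoImplicit false

universe u

open CategoryTheory CategoryTheory.Limits AlgebraicGeometry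

attribute [local instance] HasDerivedCategory.standard

namespace Groth.Agent.Dual.H353.DiagBC

open Groth.Agent.Dual.H353.Arrow

/-- `i_* G` is flat over `S` if `G` is, for `i` affine. -/
theorem isFlatOver_pushforward {Z Y S : Scheme.{u}} (i : Z ⟶ Y) [IsAffineHom i] (f : Y ⟶ S)
    (G : Z.Modules) (hG : Coh.IsQCoh G) (h : FlatMod.IsFlatOver (i ≫ f) G) :
    FlatMod.IsFlatOver f ((Scheme.Modules.pushforward i).obj G) := by
  have hq : Coh.IsQCoh ((Scheme.Modules.pushforward i).obj G) := Ega1.QcqsPush.isQCoh_pushforward i G hG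
  refine Flat2C.FlatSec.isFlatOver_of_cover f _ hq (fun y => ?_)
  obtain ⟨_, ⟨V, hV, rfl⟩, hyV, -⟩ := S.isBasis_affineOpens.exists_subset_of_mem_open
    (Set.mem_univ (f y)) isOpen_univ
  obtain ⟨_, ⟨U, hU, rfl⟩, hyU, hUV⟩ := Y.isBasis_affineOpens.exists_subset_of_mem_open
    (show y ∈ (f ⁻¹ᵁ V : Y.Opens) from hyV) (f ⁻¹ᵁ V).2
  have e : U ≤ f ⁻¹ᵁ V := hUV
  have e' : i ⁻¹ᵁ U ≤ (i ≫ f) ⁻¹ᵁ V := fun x hx => e hx
  refine ⟨U, V, hU, hV, e, hyU, ?_⟩
  have h1 : Flat2C.FlatSec.FlatSections (i ≫ f) G e' :=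
    (Flat2C.FlatSec.flat_sections_iff (i ≫ f) _ (hU.preimage i) hV e' hG).mpr (fun x _ => h x)
  have h2 : Flat2C.FlatSec.moduleOver (i ≫ f) G e' =
      Flat2C.FlatSec.moduleOver f ((Scheme.Modules.pushforward i).obj G) e := by
    apply Module.ext'
    intro r m
    change ((i ≫ f).appLE V (i ⁻¹ᵁ U) e').hom r • m = (i.app U).hom ((f.appLE V U e).hom r) • m
    congr 1
    rw [← CommRingCat.comp_apply]
    congr 2
    rw [Scheme.Hom.app_eq_appLE, Scheme.Hom.appLE_comp_appLE]
  unfold Flat2C.FlatSec.FlatSections at h1 ⊢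
  rw [← h2]
  exact h1

section Main

variable {Z Y S Z' Y' S' : Scheme.{u}} (i : Z ⟶ Y) [IsClosedImmersion i] (p : Y ⟶ S) [Flat p]
  [Flat (i ≫ p)] {u : Y' ⟶ Y} {i' : Z' ⟶ Y'} {v : Z' ⟶ Z} {p' : Y' ⟶ S'} {g : S' ⟶ S}
  [PreservesFiniteLimits (Scheme.Modules.pushforward i)]
  [PreservesFiniteColimits (Scheme.Modules.pushforward i)]
  [PreservesFiniteLimits (Scheme.Modules.pushforward i')]
  [PreservesFiniteColimits (Scheme.Modules.pushforward i')]

/-- **Tor-independent base change for the structure sheaf of a closed subscheme.** -/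
theorem nonempty_iso (hY : IsPullback u p' p g) (hZ : IsPullback v i' i u) [DCoh.HasLpull u] :
    Nonempty ((DCoh.Lpull u).obj ((Dual3.pushD i).obj (OD Z)) ≅ (Dual3.pushD i').obj (OD Z')) := by
  let M : Y.Modules := (Scheme.Modules.pushforward i).obj (Coh.structureModule Z)
  have hq : Coh.IsQCoh (Coh.structureModule Z) := Ega2.QCohLocal.isQCoh_structureModule Z
  have hq' : (Coh.structureModule Z).IsQuasicoherent := hq
  have hM : FlatMod.IsFlatOver p M :=
    isFlatOver_pushforward i p _ hq (PerfB.StructFlat.isFlatOver_structure (i ≫ p))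
  let K : CochainComplex Y.Modules ℤ := (HomologicalComplex.single Y.Modules (ComplexShape.up ℤ) 0).obj M
  have hb : ∀ j, 0 < j → IsZero (K.X j) := fun j hj =>
    HomologicalComplex.isZero_single_obj_X _ _ _ _ (by omega)
  have hK : ∀ j, FlatMod.IsFlatOver p (K.X j) := fun j => by
    by_cases hj : j = 0
    · subst hj
      exact Models2.FlatIso.isFlatOver_of_iso p
        (HomologicalComplex.singleObjXSelf (ComplexShape.up ℤ) 0 M).symm hM
    · exact PerfC.RelFlat.isFlatOver_of_isZero p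
        (HomologicalComplex.isZero_single_obj_X _ _ _ _ hj)
  have e1 : (DCoh.Lpull u).obj (DerivedCategory.Q.obj K) ≅
      DerivedCategory.Q.obj (((Scheme.Modules.pullback u).mapHomologicalComplex
        (ComplexShape.up ℤ)).obj K) :=
    PerfC.RelFlatLpull.lpullRelIso (PerfB.PullData.pullData u) hY K 0 hb hK
  obtain ⟨e2⟩ := CohqA.AffineBaseChange.nonempty_iso hZ (Coh.structureModule Z)
  exact ⟨(DCoh.Lpull u).mapIso ((pushSingle i 0).app (Coh.structureModule Z) ≪≫
      (DerivedCategory.singleFunctorIsoCompQ Y.Modules 0).app M) ≪≫ e1 ≪≫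
    DerivedCategory.Q.mapIso ((HomologicalComplex.singleMapHomologicalComplex
      (Scheme.Modules.pullback u) (ComplexShape.up ℤ) 0).app M) ≪≫
    ((DerivedCategory.singleFunctorIsoCompQ Y'.Modules 0).app _).symm ≪≫
    (DerivedCategory.singleFunctor Y'.Modules 0).mapIso (e2 ≪≫
      (Scheme.Modules.pushforward i').mapIso (PerfC.PullRestrict.pullbackUnit v)) ≪≫
    ((pushSingle i' 0).app (Coh.structureModule Z')).symm⟩

end Main

end Groth.Agent.Dual.H353.DiagBC
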