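import Groth.Agent.Dual.H353.AlgBC
import Groth.Agent.Dual.H353.DiagBC
import Groth.Agent.Dual.H351.PairRestrict

/-!
# Arbitrary base change of rigidifying arrows on affine charts
-/

set_option autoImplicit false

universe u

open CategoryTheory CategoryTheory.Limits AlgebraicGeometry
open scoped TensorProduct

attribute [local instance] HasDerivedCategory.standard

namespace Groth.Agent.Dual.H353.ChartBC

open Groth.Agent.Dual.H353.Arrow Groth.Agent.Dual.H353.AffUniv Groth.Agent.Dual.H353.IsoTransport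
  Groth.Agent.Dual.H353.AffPair Groth.Agent.Dual.H353.AlgRing Groth.Agent.Dual.H353.AlgBC
open Groth.Agent.PerfA.Restrict (restrictD)
open Groth.Agent.LoccohB.AdAffine (tD)
open Groth.Agent.Dual.H351.PairRestrict

section General

variable {Z Y : Scheme.{u}} {i : Z ⟶ Y} [PreservesFiniteLimits (Scheme.Modules.pushforward i)]
  [PreservesFiniteColimits (Scheme.Modules.pushforward i)] {C : Type*} [Category* C]

lemma goodQ_of_natIso {G₁ G₂ : C ⥤ DCoh.D Y} (E : G₁ ≅ G₂) {F L : C} (x : F ⟶ L)
    (h : GoodQ i (G₁.map x)) : GoodQ i (G₂.map x) :=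
  h.of_arrow_iso (E.app F) (E.app L) (E.hom.naturality x).symm

lemma good_of_natIso {G₁ G₂ : C ⥤ DCoh.D Y} (E : G₁ ≅ G₂) {F L : C} (x : F ⟶ L)
    (h : Good i (G₁.map x)) : Good i (G₂.map x) :=
  h.of_arrow_iso (E.app F) (E.app L) (E.hom.naturality x).symm

lemma goodQ_map_of_arrow_iso (G : C ⥤ DCoh.D Y) {F L F' L' : C} {x : F ⟶ L} {x' : F' ⟶ L'}
    (a : F ≅ F') (b : L ≅ L') (w : a.hom ≫ x' = x ≫ b.hom) (h : GoodQ i (G.map x)) :
    GoodQ i (G.map x') :=
  h.of_arrow_iso (G.mapIso a) (G.mapIso b) (by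
    rw [Functor.mapIso_hom, Functor.mapIso_hom, ← Functor.map_comp, ← Functor.map_comp, w])

end General

section Chart

variable (R R' A A' : Type u) [CommRing R] [CommRing R'] [CommRing A] [CommRing A'] [Algebra R R']
  [Algebra R A] [Algebra R A'] [Algebra R' A'] [Algebra A A'] [IsScalarTower R R' A']
  [IsScalarTower R A A'] [Algebra.IsPushout R R' A A'] [Module.Flat R A]
  [Algebra.FinitePresentation R A]

omit [Algebra.IsPushout R R' A A'] [Module.Flat R A] [Algebra.FinitePresentation R A] in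
lemma sm_comm : Spec.map (CommRingCat.ofHom (algebraMap A A')) ≫ sm R A =
    sm R' A' ≫ Spec.map (CommRingCat.ofHom (algebraMap R R')) := by
  rw [← Spec.map_comp, ← Spec.map_comp, ← CommRingCat.ofHom_comp, ← CommRingCat.ofHom_comp,
    ← IsScalarTower.algebraMap_eq, ← IsScalarTower.algebraMap_eq]

omit [Algebra.IsPushout R R' A A'] [Module.Flat R A] [Algebra.FinitePresentation R A] in
lemma tmap_comp_left : (tmap R R' A A').comp
    (Algebra.TensorProduct.includeLeftRingHom : A →+* TensorProduct R A A) =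
    (Algebra.TensorProduct.includeLeftRingHom : A' →+* TensorProduct R' A' A').comp
      (algebraMap A A') := by
  refine RingHom.ext fun a => ?_
  change tmap R R' A A' (a ⊗ₜ 1) = (algebraMap A A' a) ⊗ₜ 1
  rw [tmap_tmul, map_one]

omit [Algebra.IsPushout R R' A A'] [Module.Flat R A] [Algebra.FinitePresentation R A] in
lemma tmap_comp_right : (tmap R R' A A').comp
    (Algebra.TensorProduct.includeRight : A →ₐ[R] TensorProduct R A A).toRingHom =
    (Algebra.TensorProduct.includeRight : A' →ₐ[R'] TensorProduct R' A' A').toRingHom.comp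
      (algebraMap A A') := by
  refine RingHom.ext fun a => ?_
  change tmap R R' A A' (1 ⊗ₜ a) = 1 ⊗ₜ (algebraMap A A' a)
  rw [tmap_tmul, map_one]

omit [Algebra.IsPushout R R' A A'] [Module.Flat R A] [Algebra.FinitePresentation R A] in
/-- `u = Spec (A ⊗ A → A' ⊗ A')`. -/
lemma prodMap_comp : (pullbackSpecIso R' A' A').hom ≫ Spec.map (CommRingCat.ofHom (tmap R R' A A')) =
    prodMap (sm_comm R R' A A') ≫ (pullbackSpecIso R A A).hom := by
  rw [← Iso.comp_inv_eq]
  apply pullback.hom_ext
  · rw [prodMap_fst, Category.assoc, Category.assoc, pullbackSpecIso_inv_fst, ← Spec.map_comp,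
      ← CommRingCat.ofHom_comp, tmap_comp_left, CommRingCat.ofHom_comp, Spec.map_comp,
      pullbackSpecIso_hom_fst_assoc]
  · rw [prodMap_snd, Category.assoc, Category.assoc, pullbackSpecIso_inv_snd, ← Spec.map_comp,
      ← CommRingCat.ofHom_comp]
    refine (congrArg (fun z => (pullbackSpecIso R' A' A').hom ≫ Spec.map (CommRingCat.ofHom z))
      (tmap_comp_right R R' A A')).trans ?_
    rw [CommRingCat.ofHom_comp, Spec.map_comp]
    exact pullbackSpecIso_hom_snd_assoc ..

variable [DCoh.HasLpull (pullback.fst (sm R A) (sm R A))]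
  [DCoh.HasLpull (prodMap (sm_comm R R' A A'))]
  [PreservesFiniteLimits (Scheme.Modules.pushforward (pullback.diagonal (sm R A)))]
  [PreservesFiniteColimits (Scheme.Modules.pushforward (pullback.diagonal (sm R A)))]
  [PreservesFiniteLimits (Scheme.Modules.pushforward (pullback.diagonal (sm R' A')))]
  [PreservesFiniteColimits (Scheme.Modules.pushforward (pullback.diagonal (sm R' A')))]

/-- **Arbitrary base change of rigidifying arrows, affine charts.** -/
theorem goodQ_lpull {k : Dual.D A} (hk : Dual2.IsRelPerfect R A k)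
    {F : DCoh.D (pullback (sm R A) (sm R A))}
    (ζ : F ⟶ (DCoh.Lpull (pullback.fst (sm R A) (sm R A))).obj ((tD (CommRingCat.of A)).obj k))
    (h : GoodQ (pullback.diagonal (sm R A)) ζ) :
    GoodQ (pullback.diagonal (sm R' A')) ((DCoh.Lpull (prodMap (sm_comm R R' A A'))).map ζ) := by
  have b1 := LoccohB.LBC.hasLBaseChange
    (Algebra.TensorProduct.includeLeftRingHom : A →+* TensorProduct R A A)
  have b2 := LoccohB.LBC.hasLBaseChange (tmap R R' A A')
  have b3 : DCoh.HasLpull (Spec.map (CommRingCat.ofHom (tmap R R' A A'))) := S0959.result _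
  obtain ⟨t, ht⟩ := h
  obtain ⟨F₀, x, a, hx⟩ := exists_toPair_iso ζ t
  have h1 : GoodQ (pullback.diagonal (sm R A)) (toPair x) :=
    GoodQ.of_arrow_iso (ζ := ζ) ⟨t, ht⟩ a.symm (Iso.refl _) (by
      rw [← hx, Iso.symm_hom, Iso.inv_hom_id_assoc, Iso.refl_hom, Category.comp_id])
  have h2 : AGood (mu R A) x := (goodQ_toPair_iff x).1 h1
  have h3 : AGood (mu R' A') ((DRing.LBaseChange (tmap R R' A A')).map x) := aGood_lbc R R' A A' hk h2
  have h4 : GoodQ (Spec.map (mu R' A')) ((tD (CommRingCat.of (A' ⊗[R'] A'))).map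
      ((DRing.LBaseChange (tmap R R' A A')).map x)) := (goodQ_map_iff (ψ := mu R' A') _).2 h3
  obtain ⟨e₁⟩ := S1055.result (tmap R R' A A')
  have h5 : GoodQ (Spec.map (mu R' A'))
      ((tD (CommRingCat.of (A ⊗[R] A)) ⋙
        DCoh.Lpull (Spec.map (CommRingCat.ofHom (tmap R R' A A')))).map x) :=
    goodQ_of_natIso e₁ x h4
  have h6 := (goodQ_restrictD_iff (i := pullback.diagonal (sm R' A'))
    (pullbackSpecIso R' A' A').hom (diagonal_comp R' A') _).2 h5
  have h7 : GoodQ (pullback.diagonal (sm R' A')) ((DCoh.Lpull (prodMap (sm_comm R R' A A'))).map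
      ((restrictD (pullbackSpecIso R A A).hom).map ((tD (CommRingCat.of (A ⊗[R] A))).map x))) :=
    goodQ_of_natIso (Dcoh.DerPull.lpullRestrictIso (prodMap_comp R R' A A')) _ h6
  have h8 : GoodQ (pullback.diagonal (sm R' A')) ((DCoh.Lpull (prodMap (sm_comm R R' A A'))).map
      (toPair x)) := by
    refine goodQ_map_of_arrow_iso _ (Iso.refl _) ((target R A).app k) ?_ h7
    rw [Iso.refl_hom, Category.id_comp]
    rfl
  refine goodQ_map_of_arrow_iso _ a (Iso.refl _) ?_ h8
  rw [hx, Iso.refl_hom, Category.comp_id]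

end Chart

end Groth.Agent.Dual.H353.ChartBC
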