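import Groth.Agent.Dual.H353.AffUniv
import Groth.Agent.PerfA.PerfLocal
import Groth.Agent.PerfB.LpullOpens
import Groth.Agent.Dcoh.LocalD

/-!
# Universal arrows and isomorphisms of the target

For an isomorphism `j : Y ⟶ Y₁`, `i : Z ⟶ Y` and `i₁ = i ≫ j : Z ⟶ Y₁`, an arrow `ζ` of `D(O_{Y₁})` is good for
`i₁` iff its restriction `j^* ζ` is good for `i`.
-/

set_option autoImplicit false

universe u

open CategoryTheory CategoryTheory.Limits AlgebraicGeometry

attribute [local instance] HasDerivedCategory.standard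

namespace Groth.Agent.Dual.H353.IsoTransport

open Groth.Agent.Dual.H353.Arrow Groth.Agent.Dual.H353.AffUniv
open Groth.Agent.PerfA.Restrict (restrictD)

section FF

variable {Z Y Y₁ : Scheme.{u}} {i : Z ⟶ Y} {i₁ : Z ⟶ Y₁}
  [PreservesFiniteLimits (Scheme.Modules.pushforward i)]
  [PreservesFiniteColimits (Scheme.Modules.pushforward i)]
  [PreservesFiniteLimits (Scheme.Modules.pushforward i₁)]
  [PreservesFiniteColimits (Scheme.Modules.pushforward i₁)]
  {E : DCoh.D Y₁ ⥤ DCoh.D Y} [E.Full] [E.Faithful]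
  (κ : Dual3.pushD i ≅ Dual3.pushD i₁ ⋙ E)

include κ

lemma bijective_iff {N : DCoh.D Z} {L : DCoh.D Y₁} (ξ : (Dual3.pushD i₁).obj N ⟶ L) (M : DCoh.D Z) :
    Function.Bijective (fun φ : M ⟶ N => (Dual3.pushD i).map φ ≫ κ.hom.app N ≫ E.map ξ) ↔
      Function.Bijective (fun φ : M ⟶ N => (Dual3.pushD i₁).map φ ≫ ξ) := by
  have h2 : Function.Bijective (fun g : (Dual3.pushD i₁).obj M ⟶ L => E.map g) :=
    ⟨E.map_injective, E.map_surjective⟩
  have h3 : Function.Bijective (fun g : E.obj ((Dual3.pushD i₁).obj M) ⟶ E.obj L =>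
      κ.hom.app M ≫ g) := ((κ.app M).symm.homFromEquiv (Z := E.obj L)).bijective
  rw [← Function.Bijective.of_comp_iff' (h3.comp h2)]
  refine iff_of_eq (congrArg _ ?_)
  funext g
  simp only [Function.comp_apply, Functor.map_comp]
  exact κ.hom.naturality_assoc g _

lemma isUA_iff {N : DCoh.D Z} {L : DCoh.D Y₁} (ξ : (Dual3.pushD i₁).obj N ⟶ L) :
    IsUA i (κ.hom.app N ≫ E.map ξ) ↔ IsUA i₁ ξ :=
  forall_congr' fun M => bijective_iff κ ξ M

lemma isUAQ_iff {N : DCoh.D Z} {L : DCoh.D Y₁} (ξ : (Dual3.pushD i₁).obj N ⟶ L) :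
    IsUAQ i (κ.hom.app N ≫ E.map ξ) ↔ IsUAQ i₁ ξ :=
  forall_congr' fun M => imp_congr_right fun _ => bijective_iff κ ξ M

theorem good_map_iff {F L : DCoh.D Y₁} (ζ : F ⟶ L) : Good i (E.map ζ) ↔ Good i₁ ζ := by
  constructor
  · rintro ⟨t, ht⟩
    let t₀ : (Dual3.pushD i₁).obj (OD Z) ≅ F := E.preimageIso ((κ.app (OD Z)).symm ≪≫ t)
    refine ⟨t₀, (isUA_iff κ _).1 ?_⟩
    have h : κ.hom.app (OD Z) ≫ E.map (t₀.hom ≫ ζ) = t.hom ≫ E.map ζ := by
      have h1 : E.map t₀.hom = κ.inv.app (OD Z) ≫ t.hom := E.map_preimage _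
      rw [Functor.map_comp, h1]
      exact (congrArg (fun z => κ.hom.app (OD Z) ≫ z) (Category.assoc _ _ _)).trans
        (κ.hom_inv_id_app_assoc (OD Z) _)
    rwa [h]
  · rintro ⟨t, ht⟩
    refine ⟨κ.app (OD Z) ≪≫ E.mapIso t, ?_⟩
    have h1 := (isUA_iff κ _).2 ht
    convert h1 using 1
    simp only [Iso.trans_hom, Functor.mapIso_hom, Category.assoc, Functor.map_comp]
    rfl

theorem goodQ_map_iff {F L : DCoh.D Y₁} (ζ : F ⟶ L) : GoodQ i (E.map ζ) ↔ GoodQ i₁ ζ := by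
  constructor
  · rintro ⟨t, ht⟩
    let t₀ : (Dual3.pushD i₁).obj (OD Z) ≅ F := E.preimageIso ((κ.app (OD Z)).symm ≪≫ t)
    refine ⟨t₀, (isUAQ_iff κ _).1 ?_⟩
    have h : κ.hom.app (OD Z) ≫ E.map (t₀.hom ≫ ζ) = t.hom ≫ E.map ζ := by
      have h1 : E.map t₀.hom = κ.inv.app (OD Z) ≫ t.hom := E.map_preimage _
      rw [Functor.map_comp, h1]
      exact (congrArg (fun z => κ.hom.app (OD Z) ≫ z) (Category.assoc _ _ _)).trans
        (κ.hom_inv_id_app_assoc (OD Z) _)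
    rwa [h]
  · rintro ⟨t, ht⟩
    refine ⟨κ.app (OD Z) ≪≫ E.mapIso t, ?_⟩
    have h1 := (isUAQ_iff κ _).2 ht
    convert h1 using 1
    simp only [Iso.trans_hom, Functor.mapIso_hom, Category.assoc, Functor.map_comp]
    rfl

end FF

section Iso

open Groth.Agent.PerfA.PerfLocal

/-- Restriction along an isomorphism is an equivalence. -/
noncomputable def restrictDEquiv {Y Y₁ : Scheme.{u}} (e : Y ≅ Y₁) : DCoh.D Y₁ ≌ DCoh.D Y :=
  CategoryTheory.Equivalence.mk (restrictD e.hom) (restrictD e.inv)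
    ((Dcoh.LocalD.restrictIdIso Y₁).symm ≪≫ (restrictDCongr (e.inv_hom_id)).symm ≪≫
      (restrictDComp e.inv e.hom).symm)
    (restrictDComp e.hom e.inv ≪≫ restrictDCongr e.hom_inv_id ≪≫ Dcoh.LocalD.restrictIdIso Y)

instance {Y Y₁ : Scheme.{u}} (j : Y ⟶ Y₁) [IsIso j] : (restrictD j).IsEquivalence :=
  inferInstanceAs (restrictDEquiv (asIso j)).functor.IsEquivalence

variable {Z Y Y₁ : Scheme.{u}} {i : Z ⟶ Y} {i₁ : Z ⟶ Y₁} (j : Y ⟶ Y₁)
  [PreservesFiniteLimits (Scheme.Modules.pushforward i)]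
  [PreservesFiniteColimits (Scheme.Modules.pushforward i)]
  [PreservesFiniteLimits (Scheme.Modules.pushforward i₁)]
  [PreservesFiniteColimits (Scheme.Modules.pushforward i₁)]

/-- `i_* ≅ j^* i₁_*` on modules, for `i₁ = i ≫ j` with `j` an open immersion. -/
noncomputable def pushRestrictIso [IsOpenImmersion j] (h : i ≫ j = i₁) :
    Scheme.Modules.pushforward i₁ ⋙ Scheme.Modules.restrictFunctor j ≅
      Scheme.Modules.pushforward i :=
  Functor.isoWhiskerRight ((Scheme.Modules.pushforwardCongr h.symm) ≪≫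
    (Scheme.Modules.pushforwardComp i j).symm) _ ≪≫ Functor.associator _ _ _ ≪≫
    Functor.isoWhiskerLeft _ (asIso (Scheme.Modules.restrictAdjunction j).counit) ≪≫
    Functor.rightUnitor _

/-- `i_* ≅ j^* i₁_*` on derived categories, for `i₁ = i ≫ j` with `j` an open immersion. -/
noncomputable def pushRestrictDIso [IsOpenImmersion j] (h : i ≫ j = i₁) :
    Dual3.pushD i ≅ Dual3.pushD i₁ ⋙ restrictD j :=
  (PerfA.ExactD.mapDComp (F := Scheme.Modules.pushforward i₁)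
    (G := Scheme.Modules.restrictFunctor j) (H := Scheme.Modules.pushforward i)
    (pushRestrictIso j h)).symm

/-- **Transport along an isomorphism of the target.** -/
theorem good_restrictD_iff [IsIso j] (h : i ≫ j = i₁) {F L : DCoh.D Y₁} (ζ : F ⟶ L) :
    Good i ((restrictD j).map ζ) ↔ Good i₁ ζ :=
  good_map_iff (pushRestrictDIso j h) ζ

theorem goodQ_restrictD_iff [IsIso j] (h : i ≫ j = i₁) {F L : DCoh.D Y₁} (ζ : F ⟶ L) :
    GoodQ i ((restrictD j).map ζ) ↔ GoodQ i₁ ζ :=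
  goodQ_map_iff (pushRestrictDIso j h) ζ

end Iso

end Groth.Agent.Dual.H353.IsoTransport
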